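import Cfsg.Agent.H282.SK.Def

/-!
# S3010 (Sidki pairs): the action of `G` on a group `P` isomorphic to `K` (helper284)

For a minimal counterexample `Cx V K` and `e : K ≃* P`: `act : G →* Aut P` (injective), `el : P →* G` with image `K`.
`Cx.comm_of_O2`: if no nontrivial element of `K` lies in `O_2(C_G(⟨v, x⟩))` then the elements of `O_2(C_G(⟨v, x⟩))`
centralise `C_K(⟨v, x⟩)`.
-/

set_option autoImplicit false
set_option linter.unusedVariables false
set_option linter.style.haveILetI false

universe u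

open Subgroup Cfsg
open Cfsg.Agent.H282.SK

namespace Cfsg.Agent.H284.SK

section act

variable {G : Type u} [Group G] [Finite G] {V K : Subgroup G} {P : Type*} [Group P]

/-- `P → K ≤ G` -/
def el (e : K ≃* P) : P →* G := K.subtype.comp e.symm.toMonoidHom

theorem el_mem (e : K ≃* P) (y : P) : el e y ∈ K := (e.symm y).2

theorem el_injective (e : K ≃* P) : Function.Injective (el e) := fun a b h =>
  e.symm.injective (Subtype.ext h)

theorem exists_el (e : K ≃* P) {k : G} (hk : k ∈ K) : ∃ y, el e y = k :=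
  ⟨e ⟨k, hk⟩, by show ((e.symm (e ⟨k, hk⟩) : K) : G) = k; rw [MulEquiv.symm_apply_apply]⟩

theorem orderOf_el (e : K ≃* P) (y : P) : orderOf (el e y) = orderOf y :=
  orderOf_injective (el e) (el_injective e) y

/-- the action of `G` on `P` -/
noncomputable def act (h : Cx V K) (e : K ≃* P) : G →* MulAut P :=
  haveI := h.norm
  (MulAut.congr e).toMonoidHom.comp MulAut.conjNormal

theorem el_act (h : Cx V K) (e : K ≃* P) (g : G) (y : P) : el e (act h e g y) = g * el e y * g⁻¹ := by
  haveI := h.norm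
  show ((e.symm (e (MulAut.conjNormal g (e.symm y))) : K) : G) = _
  rw [MulEquiv.symm_apply_apply, MulAut.conjNormal_apply]
  rfl

theorem act_el (h : Cx V K) (e : K ≃* P) (y z : P) : act h e (el e y) z = y * z * y⁻¹ := by
  apply el_injective e
  rw [el_act, map_mul, map_mul, map_inv]

theorem act_el' (h : Cx V K) (e : K ≃* P) (y : P) : act h e (el e y) = MulAut.conj y := by
  ext z
  rw [act_el, MulAut.conj_apply]

theorem act_injective (h : Cx V K) (e : K ≃* P) : Function.Injective (act h e) := by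
  rw [injective_iff_map_eq_one]
  intro g hg
  apply h.eq_one_of_comm
  intro k hk
  obtain ⟨y, rfl⟩ := exists_el e hk
  have h1 := el_act h e g y
  rw [hg, MulAut.one_apply] at h1
  nth_rw 2 [h1]
  group

theorem act_apply_eq_iff (h : Cx V K) (e : K ≃* P) {g : G} {y : P} :
    act h e g y = y ↔ Commute g (el e y) := by
  constructor
  · intro h1
    have h2 := el_act h e g y
    rw [h1] at h2
    show g * el e y = el e y * g
    nth_rw 2 [h2]
    group
  · intro h1
    apply el_injective e
    rw [el_act, h1.eq, mul_inv_cancel_right]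

end act

section O2

variable {G : Type u} [Group G] [Finite G] {V K : Subgroup G}

/-- If `O_2(C)` meets `K` trivially then it centralises `C ∩ K`. -/
theorem comm_of_O2 (h : Cx V K) {C : Subgroup G} (h0 : ∀ r ∈ O2 C, r ∈ K → r = 1) {w y : G} (hw : w ∈ O2 C)
    (hy : y ∈ C) (hyK : y ∈ K) : Commute w y := by
  have h1 : w * y * w⁻¹ * y⁻¹ ∈ O2 C := by
    have e : w * y * w⁻¹ * y⁻¹ = w * (y * w⁻¹ * y⁻¹) := by group
    rw [e]
    exact (O2 C).mul_mem hw (conj_mem_O2 hy ((O2 C).inv_mem hw))
  have h2 := h0 _ h1 (K.mul_mem (h.norm.conj_mem y hyK w) (K.inv_mem hyK))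
  rw [mul_inv_eq_one, mul_inv_eq_iff_eq_mul] at h2
  exact h2

/-- To see that `O_2(C) ∩ K = 1` it is enough to look at involutions. -/
theorem O2_inf_of_invol {C K : Subgroup G} (h0 : ∀ r ∈ O2 C, r ∈ K → r * r = 1 → r = 1) :
    ∀ r ∈ O2 C, r ∈ K → r = 1 := by
  intro r hr hrK
  by_contra hne
  obtain ⟨k, hk⟩ := isPGroup_O2 C ⟨r, hr⟩
  have hk' : r ^ 2 ^ k = 1 := congrArg Subtype.val hk
  classical
  have hex : ∃ j, r ^ 2 ^ j = 1 := ⟨k, hk'⟩
  have hj := Nat.find_spec hex
  have hj0 : Nat.find hex ≠ 0 := by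
    intro h1
    rw [h1, pow_zero, pow_one] at hj
    exact hne hj
  obtain ⟨j, hj1⟩ := Nat.exists_eq_succ_of_ne_zero hj0
  have h2 : ¬ r ^ 2 ^ j = 1 := Nat.find_min hex (by omega)
  apply h2
  apply h0 _ ((O2 C).pow_mem hr _) (K.pow_mem hrK _)
  rw [← pow_add, ← two_mul, ← pow_succ']
  rw [hj1] at hj
  exact hj

end O2

end Cfsg.Agent.H284.SK
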