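import Mathlib

/-!
# S3010 (Sidki pairs), characteristic 2: the field of degree `2k` and its involution (helper284)

`exists_field`: for a finite field `F` of characteristic 2 with `q` elements and `k ≥ 1` there is a field `L` of degree
`2k` over `F`, the `F`-automorphism `τ = (x ↦ x ^ q ^ k)` of order 2 whose fixed space has dimension `k`, an element `ζ`
of order `q ^ k + 1` inverted by `τ` which generates `L`, such that the minimal polynomial of `ζ` is fixed by no
automorphism of `F` of order 2; for `k ≥ 2` there is `a ∈ L`, `τ a = a`, `a ^ (q - 1) ∉ F`.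
-/

set_option autoImplicit false
set_option linter.style.haveILetI false
set_option linter.unusedVariables false

open Polynomial Module

namespace Cfsg.Agent.H284.SK

/-- The data: a field `L` of degree `2k` over `F` with its involution `τ` and `ζ`. -/
structure Fd (F : Type*) [Field F] (k : ℕ) (L : Type) [Field L] [Algebra F L] (τ : L ≃ₐ[F] L) (ζ : L) : Prop where
  fr : finrank F L = 2 * k
  tt : ∀ x, τ (τ x) = x
  kr : finrank F (LinearMap.ker (τ.toLinearMap - LinearMap.id)) = k
  inv : τ ζ = ζ⁻¹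
  odd : Odd (orderOf ζ)
  ne_one : ζ ≠ 1
  adj : Algebra.adjoin F {ζ} = ⊤
  mn : ∀ σ : F ≃+* F, σ * σ = 1 → σ ≠ 1 → aeval ζ ((minpoly F ζ).map (σ : F →+* F)) ≠ 0
  big : 2 ≤ k → ∃ a : L, a ≠ 0 ∧ τ a = a ∧ ∀ c : F, a ^ (Nat.card F - 1) ≠ algebraMap F L c

section

variable {F : Type*} [Field F] [Finite F]

/-- An element `ζ` of an extension `L` of degree `2 k` whose order is `|F|^k + 1` generates `L`. -/
theorem adjoin_eq_top {L : Type*} [Field L] [Algebra F L] [Module.Finite F L] {k : ℕ} (hk : 1 ≤ k)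
    (hd : finrank F L = 2 * k) {ζ : L} (hζ : orderOf ζ = Nat.card F ^ k + 1) :
    IntermediateField.adjoin F {ζ} = ⊤ := by
  have hL : Finite L := Module.finite_of_finite F
  set E := IntermediateField.adjoin F {ζ} with hE
  have h1 : finrank F E * finrank E L = 2 * k := by rw [← hd]; exact finrank_mul_finrank F E L
  have hq : 1 < Nat.card F := Finite.one_lt_card
  have hζ0 : ζ ≠ 0 := by
    rintro rfl
    have : orderOf (0 : L) = 0 := by
      rw [orderOf_eq_zero_iff']
      intro n hn h
      rw [zero_pow hn.ne'] at h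
      exact zero_ne_one h
    omega
  have h2 : ζ ∈ E := IntermediateField.mem_adjoin_simple_self F ζ
  have h3 : ζ ^ (Nat.card E - 1) = 1 := by
    have hf : Fintype E := Fintype.ofFinite E
    have := FiniteField.pow_card_sub_one_eq_one (⟨ζ, h2⟩ : E) (fun h => hζ0 (congrArg Subtype.val h))
    rw [Fintype.card_eq_nat_card] at this
    exact congrArg Subtype.val this
  have h4 : Nat.card E = Nat.card F ^ finrank F E := Module.natCard_eq_pow_finrank
  have h5 : Nat.card F ^ k + 1 ∣ Nat.card F ^ finrank F E - 1 := by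
    rw [← hζ, ← h4]; exact orderOf_dvd_of_pow_eq_one h3
  have h6 : 0 < finrank F E := Module.finrank_pos
  have h7 : 1 < Nat.card F ^ finrank F E := Nat.one_lt_pow h6.ne' hq
  have h8 : Nat.card F ^ k + 1 ≤ Nat.card F ^ finrank F E - 1 := Nat.le_of_dvd (by omega) h5
  have h9 : k < finrank F E := by
    by_contra hle
    push Not at hle
    have := Nat.pow_le_pow_right (by omega : 0 < Nat.card F) hle
    omega
  have h10 : finrank E L = 1 := by
    have h11 : 0 < finrank E L := Module.finrank_pos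
    by_contra hne
    have h12 : 2 ≤ finrank E L := by omega
    have : finrank F E * 2 ≤ 2 * k := by rw [← h1]; exact Nat.mul_le_mul_left _ h12
    omega
  exact IntermediateField.finrank_eq_one_iff_eq_top.1 h10

/-- The minimal polynomial of `ζ` is not fixed by `σ`. -/
theorem map_minpoly_ne {L : Type*} [Field L] [Algebra F L] [Module.Finite F L] {k : ℕ} (hk : 1 ≤ k)
    (hd : finrank F L = 2 * k) {ζ : L} (hζ : orderOf ζ = Nat.card F ^ k + 1) (σ : F ≃+* F) (hσ : σ * σ = 1)
    (hσ1 : σ ≠ 1) : aeval ζ ((minpoly F ζ).map (σ : F →+* F)) ≠ 0 := by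
  intro h0
  have hL : Finite L := Module.finite_of_finite F
  have hint : IsIntegral F ζ := Algebra.IsIntegral.isIntegral ζ
  -- `μ^σ = μ`
  have hmon : ((minpoly F ζ).map (σ : F →+* F)).Monic := (minpoly.monic hint).map _
  have hdvd : minpoly F ζ ∣ (minpoly F ζ).map (σ : F →+* F) := minpoly.dvd F ζ h0
  have heq : (minpoly F ζ).map (σ : F →+* F) = minpoly F ζ := by
    refine Polynomial.eq_of_monic_of_dvd_of_natDegree_le (minpoly.monic hint) hmon hdvd ?_
    rw [Polynomial.natDegree_map]
  -- the fixed field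
  let F₀ : Subfield F := FixedPoints.subfield (Subgroup.zpowers σ) F
  have hfin : Finite (F ≃+* F) := Finite.of_injective (fun e : F ≃+* F => (e : F → F)) DFunLike.coe_injective
  have hmem : ∀ x : F, x ∈ F₀ ↔ σ x = x := by
    intro x
    constructor
    · intro h
      exact h ⟨σ, Subgroup.mem_zpowers σ⟩
    · rintro h ⟨g, hg⟩
      obtain ⟨i, rfl⟩ := Subgroup.mem_zpowers_iff.1 hg
      show (σ ^ i) x = x
      have : σ ∈ MulAction.stabilizer (F ≃+* F) x := h
      exact (Subgroup.zpow_mem _ this i : _)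
  have hcard : finrank F₀ F = 2 := by
    have h1 : finrank F₀ F = Nat.card (Subgroup.zpowers σ) := by
      haveI : Fintype (Subgroup.zpowers σ) := Fintype.ofFinite _
      rw [Nat.card_eq_fintype_card]
      exact FixedPoints.finrank_eq_card (Subgroup.zpowers σ) F
    rw [h1, Nat.card_zpowers]
    exact orderOf_eq_prime (by rw [pow_two]; exact hσ) hσ1
  have hlift : ∃ μ₀ : F₀[X], μ₀.map (algebraMap F₀ F) = minpoly F ζ ∧ μ₀.natDegree = (minpoly F ζ).natDegree ∧
      μ₀.Monic := by
    have h2 : minpoly F ζ ∈ Polynomial.lifts (algebraMap F₀ F) := by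
      rw [Polynomial.lifts_iff_coeff_lifts]
      intro n
      refine ⟨⟨(minpoly F ζ).coeff n, ?_⟩, rfl⟩
      rw [hmem]
      have := congrArg (fun p => Polynomial.coeff p n) heq
      simpa using this
    obtain ⟨μ₀, h3, h4, h5⟩ := Polynomial.lifts_and_natDegree_eq_and_monic h2 (minpoly.monic hint)
    exact ⟨μ₀, h3, h4, h5⟩
  obtain ⟨μ₀, h3, h4, h5⟩ := hlift
  have : IsScalarTower F₀ F L := inferInstance
  have : Module.Finite F₀ L := Module.Finite.trans F L
  have h6 : aeval ζ μ₀ = 0 := by
    have : aeval ζ (μ₀.map (algebraMap F₀ F)) = 0 := by rw [h3]; exact minpoly.aeval F ζ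
    rwa [Polynomial.aeval_map_algebraMap] at this
  have hint₀ : IsIntegral F₀ ζ := Algebra.IsIntegral.isIntegral ζ
  set E := IntermediateField.adjoin F₀ {ζ} with hE
  have h7 : finrank F₀ E ≤ 2 * k := by
    rw [hE, IntermediateField.adjoin.finrank hint₀]
    have h8 : (minpoly F₀ ζ).natDegree ≤ μ₀.natDegree := by
      apply Polynomial.natDegree_le_of_dvd (minpoly.dvd F₀ ζ h6) h5.ne_zero
    have h9 : (minpoly F ζ).natDegree ≤ finrank F L := minpoly.natDegree_le ζ
    omega
  have hq : 1 < Nat.card F := Finite.one_lt_card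
  have hζ0 : ζ ≠ 0 := by
    rintro rfl
    have : orderOf (0 : L) = 0 := by
      rw [orderOf_eq_zero_iff']
      intro n hn h
      rw [zero_pow hn.ne'] at h
      exact zero_ne_one h
    omega
  have h10 : ζ ∈ E := IntermediateField.mem_adjoin_simple_self F₀ ζ
  have h11 : ζ ^ (Nat.card E - 1) = 1 := by
    have hf : Fintype E := Fintype.ofFinite E
    have := FiniteField.pow_card_sub_one_eq_one (⟨ζ, h10⟩ : E) (fun h => hζ0 (congrArg Subtype.val h))
    rw [Fintype.card_eq_nat_card] at this
    exact congrArg Subtype.val this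
  have h12 : Nat.card E = Nat.card F₀ ^ finrank F₀ E := Module.natCard_eq_pow_finrank
  have h13 : Nat.card F = Nat.card F₀ ^ 2 := by
    rw [← hcard]; exact Module.natCard_eq_pow_finrank
  have hq0 : 1 < Nat.card F₀ := Finite.one_lt_card
  have h14 : Nat.card E ≤ Nat.card F ^ k := by
    rw [h12, h13, ← pow_mul]
    exact Nat.pow_le_pow_right (by omega) h7
  have h15 : Nat.card F ^ k + 1 ∣ Nat.card E - 1 := by
    rw [← hζ]; exact orderOf_dvd_of_pow_eq_one h11
  have h16 : 1 < Nat.card E := Finite.one_lt_card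
  have := Nat.le_of_dvd (by omega) h15
  omega

end

section

variable (F : Type*) [Field F] [Finite F] [CharP F 2]

theorem even_card : Even (Nat.card F) := by
  haveI : Fintype F := Fintype.ofFinite F
  rw [Nat.card_eq_fintype_card]
  obtain ⟨n, hn, h⟩ := FiniteField.card F 2
  rw [h]
  exact (Nat.even_pow.2 ⟨even_two, n.ne_zero⟩)

theorem exists_field {k : ℕ} (hk : 1 ≤ k) :
    ∃ (L : Type) (_ : Field L) (_ : Algebra F L) (_ : Module.Finite F L) (τ : L ≃ₐ[F] L) (ζ : L), Fd F k L τ ζ := by
  haveI : NeZero (2 * k) := ⟨by omega⟩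
  let L := FiniteField.Extension F 2 (2 * k)
  have hfr : finrank F L = 2 * k := FiniteField.finrank_extension F 2 (2 * k)
  set q := Nat.card F with hqd
  have hq : 1 < q := Finite.one_lt_card
  have hcL : Nat.card L = q ^ (2 * k) := FiniteField.natCard_extension F 2 (2 * k)
  let τ : L ≃ₐ[F] L := FiniteField.Extension.frob F 2 (2 * k) ^ k
  have hτ : ∀ x, τ x = x ^ q ^ k := fun x => FiniteField.Extension.frob_iterate_apply F 2 (2 * k) k
  have hfL : Fintype L := Fintype.ofFinite L
  have hpc : ∀ x : L, x ^ q ^ (2 * k) = x := by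
    intro x
    have := FiniteField.pow_card x
    rwa [Fintype.card_eq_nat_card, hcL] at this
  have htt : ∀ x, τ (τ x) = x := by
    intro x
    rw [hτ, hτ, ← pow_mul, ← pow_add, ← two_mul, hpc]
  -- generator of `Lˣ`
  obtain ⟨g, hg⟩ := IsCyclic.exists_ofOrder_eq_natCard (α := Lˣ)
  have hcu : Nat.card Lˣ = (q ^ k - 1) * (q ^ k + 1) := by
    rw [Nat.card_units, hcL, mul_comm 2 k, pow_mul]
    have h1 : 1 ≤ q ^ k := Nat.one_le_pow _ _ (by omega)
    obtain ⟨m, hm⟩ : ∃ m, q ^ k = m + 1 := ⟨q ^ k - 1, by omega⟩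
    rw [hm, pow_two]
    have : (m + 1) * (m + 1) - 1 = (m + 1 - 1) * (m + 1 + 1) := by
      rw [Nat.add_sub_cancel]
      apply Nat.sub_eq_of_eq_add
      ring
    exact this
  have hqk : 1 < q ^ k := Nat.one_lt_pow (by omega) hq
  have hg' : orderOf (g : L) = (q ^ k - 1) * (q ^ k + 1) := by rw [orderOf_units, hg, hcu]
  have hg0 : (g : L) ≠ 0 := g.ne_zero
  let ζ : L := (g : L) ^ (q ^ k - 1)
  have hζo : orderOf ζ = q ^ k + 1 := by
    have h1 : orderOf ((g : L) ^ (q ^ k - 1)) = orderOf (g : L) / Nat.gcd (orderOf (g : L)) (q ^ k - 1) :=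
      orderOf_pow' (g : L) (by omega)
    show orderOf ((g : L) ^ (q ^ k - 1)) = q ^ k + 1
    rw [h1, hg', Nat.gcd_eq_right (Dvd.intro _ rfl), Nat.mul_div_cancel_left _ (by omega)]
  have hζ0 : ζ ≠ 0 := pow_ne_zero _ hg0
  have hζ1 : ζ ≠ 1 := by
    intro h
    rw [h, orderOf_one] at hζo
    omega
  have hζi : τ ζ = ζ⁻¹ := by
    rw [hτ, ← mul_eq_one_iff_eq_inv₀ hζ0, ← pow_succ, ← hζo, pow_orderOf_eq_one]
  have hodd : Odd (orderOf ζ) := by
    rw [hζo]
    exact ((even_card F).pow_of_ne_zero (by omega)).add_one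
  have hadj := adjoin_eq_top hk hfr hζo
  refine ⟨L, inferInstance, inferInstance, inferInstance, τ, ζ, ⟨hfr, htt, ?_, hζi, hodd, hζ1, ?_, ?_, ?_⟩⟩
  · -- the fixed space
    let H : Subgroup (L ≃ₐ[F] L) := Subgroup.zpowers τ
    have hτ1 : τ ≠ 1 := by
      intro h
      have h1 : ζ = ζ⁻¹ := by rw [← hζi, h]; rfl
      have h2 : ζ * ζ = 1 := by nth_rw 2 [h1]; exact mul_inv_cancel₀ hζ0
      have h3 : orderOf ζ ∣ 2 := orderOf_dvd_of_pow_eq_one (by rw [pow_two]; exact h2)
      have := Nat.le_of_dvd (by norm_num) h3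
      omega
    have h2 : Nat.card H = 2 := by
      rw [Nat.card_zpowers]
      exact orderOf_eq_prime (by rw [pow_two]; ext x; exact htt x) hτ1
    have h3 : finrank (IntermediateField.fixedField H) L = 2 := by
      rw [IntermediateField.finrank_fixedField_eq_card, h2]
    have h4 : finrank F (IntermediateField.fixedField H) * finrank (IntermediateField.fixedField H) L = 2 * k :=
      (finrank_mul_finrank F _ L).trans hfr
    have h5 : LinearMap.ker (τ.toLinearMap - LinearMap.id) =
        Subalgebra.toSubmodule (IntermediateField.fixedField H).toSubalgebra := by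
      ext x
      rw [LinearMap.mem_ker, LinearMap.sub_apply, sub_eq_zero]
      show τ x = x ↔ x ∈ IntermediateField.fixedField H
      rw [IntermediateField.mem_fixedField_iff]
      constructor
      · rintro h f hf
        obtain ⟨i, rfl⟩ := Subgroup.mem_zpowers_iff.1 hf
        have : τ ∈ MulAction.stabilizer (L ≃ₐ[F] L) x := h
        exact Subgroup.zpow_mem _ this i
      · intro h
        exact h τ (Subgroup.mem_zpowers τ)
    rw [h5]
    change finrank F (IntermediateField.fixedField H) = k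
    rw [h3] at h4
    omega
  · have h1 := IntermediateField.adjoin_simple_toSubalgebra_of_isAlgebraic
      (Algebra.IsAlgebraic.isAlgebraic (R := F) ζ)
    rw [← h1, hadj]
    rfl
  · intro σ hσ hσ1
    exact map_minpoly_ne hk hfr hζo σ hσ hσ1
  · intro hk2
    refine ⟨(g : L) ^ (q ^ k + 1), pow_ne_zero _ hg0, ?_, ?_⟩
    · rw [hτ, ← pow_mul, add_mul, one_mul, ← pow_add, ← two_mul, pow_add, hpc, pow_add, pow_one, mul_comm]
    · intro c hc
      have hc0 : c ≠ 0 := by
        rintro rfl
        rw [map_zero] at hc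
        exact pow_ne_zero _ (pow_ne_zero _ hg0) hc
      have h1 : (((g : L) ^ (q ^ k + 1)) ^ (q - 1)) ^ (q - 1) = 1 := by
        rw [hc, ← map_pow]
        haveI : Fintype F := Fintype.ofFinite F
        have := FiniteField.pow_card_sub_one_eq_one c hc0
        rw [Fintype.card_eq_nat_card] at this
        rw [this, map_one]
      rw [← pow_mul, ← pow_mul] at h1
      have h2 := orderOf_dvd_of_pow_eq_one h1
      rw [hg', mul_comm (q ^ k - 1)] at h2
      have h3 : q ^ k - 1 ∣ (q - 1) * (q - 1) := Nat.dvd_of_mul_dvd_mul_left (by omega) h2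
      have h4 : 0 < (q - 1) * (q - 1) := Nat.mul_pos (by omega) (by omega)
      have h5 := Nat.le_of_dvd h4 h3
      have h6 : q ^ 2 ≤ q ^ k := Nat.pow_le_pow_right (by omega) hk2
      obtain ⟨m, hm⟩ : ∃ m, q = m + 2 := ⟨q - 2, by omega⟩
      rw [hm] at h5 h6 hqk
      have h7 : (m + 2 - 1) * (m + 2 - 1) = m * m + 2 * m + 1 := by
        rw [show m + 2 - 1 = m + 1 by omega]; ring
      have h8 : (m + 2) ^ 2 = m * m + 4 * m + 4 := by ring
      omega

end

end Cfsg.Agent.H284.SK
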