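import Cfsg.Agent.H284.SK.Fld

/-!
# S3010 (Sidki pairs), characteristic 2: normal form of linear involutions (helper284)

`exists_sq_zero` : a linear map `N` with `N² = 0` is `(a, b, z) ↦ (0, a, 0)` on `F^k × F^k × F^c`.
`exists_model` : a linear involution `s ≠ 1` of a space `M` in characteristic 2 is `(τ, 1)` on `L × F^c`, `L` the field of
degree `2 k` of `exists_field`.
-/

set_option autoImplicit false
set_option linter.style.haveILetI false
set_option linter.unusedVariables false

open Module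

namespace Cfsg.Agent.H284.SK

theorem exists_sq_zero {F M : Type*} [Field F] [AddCommGroup M] [Module F M] [FiniteDimensional F M]
    (N : M →ₗ[F] M) (hN : ∀ x, N (N x) = 0) :
    ∃ (c : ℕ) (φ : ((Fin (finrank F (LinearMap.range N)) → F) × (Fin (finrank F (LinearMap.range N)) → F) ×
        (Fin c → F)) ≃ₗ[F] M),
      (∀ a b z, N (φ (a, b, z)) = φ (0, a, 0)) ∧ finrank F (LinearMap.range N) + c = finrank F (LinearMap.ker N) := by
  classical
  obtain ⟨Q, hQ⟩ := Submodule.exists_isCompl (LinearMap.ker N)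
  -- `N` restricted to `Q` is injective with the range of `N`
  have hinj : ∀ a ∈ Q, N a = 0 → a = 0 := by
    intro a ha h
    have : a ∈ LinearMap.ker N ⊓ Q := ⟨h, ha⟩
    rw [hQ.inf_eq_bot] at this
    exact (Submodule.mem_bot F).1 this
  have hle : LinearMap.range N ≤ LinearMap.ker N := by
    rintro _ ⟨x, rfl⟩
    exact hN x
  obtain ⟨R, hR⟩ := Submodule.exists_isCompl ((LinearMap.range N).comap (LinearMap.ker N).subtype)
  set R' : Submodule F M := R.map (LinearMap.ker N).subtype with hR'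
  have hR'le : R' ≤ LinearMap.ker N := by
    rintro _ ⟨x, -, rfl⟩
    exact x.2
  have hdis : ∀ a, a ∈ LinearMap.range N → a ∈ R' → a = 0 := by
    rintro a ha ⟨y, hy, rfl⟩
    have h1 : y ∈ (LinearMap.range N).comap (LinearMap.ker N).subtype ⊓ R := ⟨ha, hy⟩
    rw [hR.inf_eq_bot, Submodule.mem_bot] at h1
    rw [h1]; rfl
  have hsup : ∀ a ∈ LinearMap.ker N, ∃ b ∈ LinearMap.range N, ∃ c ∈ R', a = b + c := by
    intro a ha
    have h1 : (⟨a, ha⟩ : LinearMap.ker N) ∈ (LinearMap.range N).comap (LinearMap.ker N).subtype ⊔ R := by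
      rw [hR.sup_eq_top]; exact Submodule.mem_top
    obtain ⟨b, hb, c, hc, h⟩ := Submodule.mem_sup.1 h1
    exact ⟨b, hb, c, ⟨c, hc, rfl⟩, (congrArg Subtype.val h).symm⟩
  have hfQ : finrank F Q = finrank F (LinearMap.range N) := by
    have h1 := LinearMap.finrank_range_add_finrank_ker N
    have h2 := Submodule.finrank_add_eq_of_isCompl hQ
    omega
  set k := finrank F (LinearMap.range N) with hk
  set c := finrank F R' with hc
  let bQ : (Fin k → F) ≃ₗ[F] Q := ((Module.finBasisOfFinrankEq F Q hfQ).equivFun).symm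
  let bR : (Fin c → F) ≃ₗ[F] R' := ((Module.finBasisOfFinrankEq F R' rfl).equivFun).symm
  let f : ((Fin k → F) × (Fin k → F) × (Fin c → F)) →ₗ[F] M :=
    LinearMap.coprod (Q.subtype ∘ₗ bQ.toLinearMap)
      (LinearMap.coprod (N ∘ₗ Q.subtype ∘ₗ bQ.toLinearMap) (R'.subtype ∘ₗ bR.toLinearMap))
  have hf : ∀ a b z, f (a, b, z) = (bQ a : M) + (N (bQ b) + (bR z : M)) := fun a b z => rfl
  have hNf : ∀ a b z, N (f (a, b, z)) = N (bQ a) := by
    intro a b z
    have h1 : N (bR z : M) = 0 := hR'le (bR z).2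
    rw [hf, map_add, map_add, hN, h1, add_zero, add_zero]
  have hfi : Function.Injective f := by
    rw [← LinearMap.ker_eq_bot, LinearMap.ker_eq_bot']
    rintro ⟨a, b, z⟩ h
    have h1 : N (bQ a) = 0 := by rw [← hNf a b z, h, map_zero]
    have h2 : (bQ a : M) = 0 := hinj _ (bQ a).2 h1
    rw [hf, h2, zero_add] at h
    have h3 : (bR z : M) ∈ LinearMap.range N := by
      rw [← neg_eq_of_add_eq_zero_right h]
      exact Submodule.neg_mem _ ⟨_, rfl⟩
    have h4 : (bR z : M) = 0 := hdis _ h3 (bR z).2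
    rw [h4, add_zero] at h
    have h5 : (bQ b : M) = 0 := hinj _ (bQ b).2 h
    have h6 : a = 0 := by
      apply bQ.injective; rw [map_zero]; exact Subtype.ext h2
    have h7 : b = 0 := by
      apply bQ.injective; rw [map_zero]; exact Subtype.ext h5
    have h8 : z = 0 := by
      apply bR.injective; rw [map_zero]; exact Subtype.ext h4
    rw [h6, h7, h8]; rfl
  have hfs : Function.Surjective f := by
    intro x
    have h1 : x ∈ LinearMap.ker N ⊔ Q := by rw [hQ.sup_eq_top]; exact Submodule.mem_top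
    obtain ⟨y, hy, a, ha, rfl⟩ := Submodule.mem_sup.1 h1
    obtain ⟨_, ⟨b, rfl⟩, z, hz, rfl⟩ := hsup y hy
    have h2 : b ∈ LinearMap.ker N ⊔ Q := by rw [hQ.sup_eq_top]; exact Submodule.mem_top
    obtain ⟨y', hy', b', hb', rfl⟩ := Submodule.mem_sup.1 h2
    refine ⟨(bQ.symm ⟨a, ha⟩, bQ.symm ⟨b', hb'⟩, bR.symm ⟨z, hz⟩), ?_⟩
    rw [hf, LinearEquiv.apply_symm_apply, LinearEquiv.apply_symm_apply, LinearEquiv.apply_symm_apply, map_add,
      show N y' = 0 from hy', zero_add, add_comm]
  have hbij : Function.Bijective f := ⟨hfi, hfs⟩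
  refine ⟨c, LinearEquiv.ofBijective f hbij, ?_, ?_⟩
  · intro a b z
    change N (f (a, b, z)) = f (0, a, 0)
    rw [hNf, hf, map_zero, map_zero]
    simp
  · have h1 := Submodule.finrank_add_eq_of_isCompl hR
    have h2 : finrank F ((LinearMap.range N).comap (LinearMap.ker N).subtype) = k := by
      rw [hk]
      exact LinearEquiv.finrank_eq (Submodule.comapSubtypeEquivOfLe hle)
    have h3 : finrank F R = c := by
      rw [hc, hR']
      exact (LinearEquiv.finrank_eq (Submodule.equivMapOfInjective _ (Submodule.subtype_injective _) R))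
    omega

/-- a linear involution of characteristic 2 in normal form -/
theorem exists_nf {F M : Type*} [Field F] [CharP F 2] [AddCommGroup M] [Module F M] [FiniteDimensional F M]
    (s : M →ₗ[F] M) (hs : ∀ x, s (s x) = x) {k : ℕ} (hk : finrank F (LinearMap.range (s - LinearMap.id)) = k) :
    ∃ (c : ℕ) (φ : ((Fin k → F) × (Fin k → F) × (Fin c → F)) ≃ₗ[F] M),
      (∀ a b z, s (φ (a, b, z)) = φ (a, a + b, z)) ∧ k + c = finrank F (LinearMap.ker (s - LinearMap.id)) := by
  subst hk
  have hN : ∀ x : M, (s - LinearMap.id : M →ₗ[F] M) ((s - LinearMap.id : M →ₗ[F] M) x) = 0 := by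
    intro x
    have h2 : (2 : F) = 0 := CharTwo.two_eq_zero
    simp only [LinearMap.sub_apply, LinearMap.id_apply, map_sub, hs]
    have h3 : x - s x - (s x - x) = (2 : F) • (x - s x) := by
      rw [two_smul]; abel
    rw [h3, h2, zero_smul]
  obtain ⟨c, φ, h1, h2⟩ := exists_sq_zero (s - LinearMap.id) hN
  refine ⟨c, φ, ?_, h2⟩
  intro a b z
  have h3 := h1 a b z
  rw [LinearMap.sub_apply, LinearMap.id_apply, sub_eq_iff_eq_add, ← map_add] at h3
  rw [h3]
  congr 1
  simp

/-- **The model.** -/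
theorem exists_model {F : Type*} [Field F] [Finite F] [CharP F 2] {n : ℕ} (s : (Fin n → F) →ₗ[F] (Fin n → F))
    (hs : ∀ x, s (s x) = x) (hs1 : s ≠ LinearMap.id) :
    ∃ (k : ℕ) (_ : 1 ≤ k) (c : ℕ) (_ : 2 * k + c = n) (L : Type) (_ : Field L) (_ : Algebra F L)
      (_ : Module.Finite F L) (τ : L ≃ₐ[F] L) (ζ : L) (_ : Fd F k L τ ζ)
      (Φ : (Fin n → F) ≃ₗ[F] (L × (Fin c → F))), ∀ x, Φ (s x) = (τ (Φ x).1, (Φ x).2) := by
  set k := finrank F (LinearMap.range (s - LinearMap.id)) with hk
  have hk1 : 1 ≤ k := by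
    by_contra h
    have h0 : finrank F (LinearMap.range (s - LinearMap.id)) = 0 := by omega
    rw [Submodule.finrank_eq_zero, LinearMap.range_eq_bot, sub_eq_zero] at h0
    exact hs1 h0
  obtain ⟨c, φ, h1, h2⟩ := exists_nf s hs hk.symm
  obtain ⟨L, hL1, hL2, hL3, τ, ζ, hF⟩ := exists_field F hk1
  have hrk : finrank F (LinearMap.range (τ.toLinearMap - LinearMap.id)) = k := by
    have h3 := LinearMap.finrank_range_add_finrank_ker (τ.toLinearMap - LinearMap.id)
    rw [hF.kr, hF.fr] at h3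
    omega
  obtain ⟨c', ψ, h3, h4⟩ := exists_nf τ.toLinearMap hF.tt hrk
  rw [hF.kr] at h4
  obtain rfl : c' = 0 := by omega
  have h5 : 2 * k + c = n := by
    have h6 := LinearEquiv.finrank_eq φ
    rw [Module.finrank_prod, Module.finrank_prod] at h6
    simp only [Module.finrank_fin_fun] at h6
    omega
  -- the map
  let g : ((Fin k → F) × (Fin k → F) × (Fin c → F)) ≃ₗ[F] (L × (Fin c → F)) :=
    { toFun := fun x => (ψ (x.1, x.2.1, 0), x.2.2)
      invFun := fun y => ((ψ.symm y.1).1, (ψ.symm y.1).2.1, y.2)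
      map_add' := by
        intro x y
        refine Prod.ext ?_ rfl
        change ψ (x.1 + y.1, x.2.1 + y.2.1, 0) = ψ (x.1, x.2.1, 0) + ψ (y.1, y.2.1, 0)
        rw [← map_add]
        congr 1
        simp
      map_smul' := by
        intro r x
        refine Prod.ext ?_ rfl
        change ψ (r • x.1, r • x.2.1, 0) = r • ψ (x.1, x.2.1, 0)
        rw [← map_smul]
        congr 1
        simp
      left_inv := by
        intro x
        simp
      right_inv := by
        intro y
        refine Prod.ext ?_ rfl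
        change ψ ((ψ.symm y.1).1, (ψ.symm y.1).2.1, 0) = y.1
        have : ((ψ.symm y.1).1, (ψ.symm y.1).2.1, (0 : Fin 0 → F)) = ψ.symm y.1 := by
          refine Prod.ext rfl (Prod.ext rfl (Subsingleton.elim _ _))
        rw [this, LinearEquiv.apply_symm_apply] }
  refine ⟨k, hk1, c, h5, L, hL1, hL2, hL3, τ, ζ, hF, φ.symm.trans g, ?_⟩
  intro x
  obtain ⟨⟨a, b, z⟩, rfl⟩ := φ.surjective x
  rw [h1, LinearEquiv.trans_apply, LinearEquiv.trans_apply, LinearEquiv.symm_apply_apply,
    LinearEquiv.symm_apply_apply]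
  change (ψ (a, a + b, 0), z) = (τ (ψ (a, b, 0)), z)
  refine Prod.ext ?_ rfl
  exact (h3 a b 0).symm

end Cfsg.Agent.H284.SK
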