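import Cfsg.Agent.H284.SK.Act
import Cfsg.Agent.H284.SK.Model

/-!
# S3010 (Sidki pairs), `K = PSL_n(q)`, `q` even: `O_2(C_G(⟨v, x⟩))` (helper284)

`v = s` an involution of `SL_n(F)`, `x = X`. `R0`: `O_2(C_G(⟨v, x⟩)) ∩ K = 1`. `outer`: some `w ∈ V` is a bilinear
polarity that commutes with `v`, `x` and all of `C_K(⟨v, x⟩)`.
-/

set_option autoImplicit false
set_option linter.unusedVariables false
set_option linter.unusedSectionVars false
set_option linter.style.haveILetI false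

universe u

open Matrix Subgroup Cfsg
open Cfsg.Agent.H282.SK
open Cfsg.Agent.ClassicalGeometry.AutPSL.Root
open Cfsg.Agent.ClassicalGeometry.AutPSL.Auto
open Cfsg.Agent.H199.PslAut

namespace Cfsg.Agent.H284.SK

variable {F : Type*} [Field F] [Finite F] [CharP F 2] {n : ℕ}
variable {G : Type u} [Group G] [Finite G] {V K : Subgroup G}

local notation "PSLn" => Matrix.ProjectiveSpecialLinearGroup (Fin n) F
local notation "SLn" => Matrix.SpecialLinearGroup (Fin n) F

theorem odd_of_pow {M : Type*} [Monoid M] {x : M} {m : ℕ} (hm : Odd m) (h : x ^ m = 1) : Odd (orderOf x) :=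
  Odd.of_dvd_nat hm (orderOf_dvd_of_pow_eq_one h)

/-- an involution of `K` lifts to an involution of `SL_n(F)` -/
theorem exists_lift (hn : 2 ≤ n) (y : PSLn) (hy : y * y = 1) : ∃ R : SLn, R * R = 1 ∧ pr R = y := by
  haveI : Nontrivial (Fin n) := Fin.nontrivial_iff_two_le.2 hn
  obtain ⟨Y, rfl⟩ := pr_surjective y
  have h1 : Psi n F (Y : GL (Fin n) F) * Psi n F (Y : GL (Fin n) F) = 1 := by
    rw [Psi_coe, ← map_mul, hy, map_one]
  obtain ⟨R, hR, hRY⟩ := exists_sl_of_sq hn _ h1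
  refine ⟨R, hR, ?_⟩
  -- `R Y⁻¹` acts trivially, hence is scalar
  have h2 : Psi n F (R : GL (Fin n) F) = Psi n F (Y : GL (Fin n) F) := hRY
  obtain ⟨u, hu⟩ := (Psi_eq_Psi_iff hn).1 h2
  have h3 : (R : Matrix (Fin n) (Fin n) F) = (u : F) • (Y : Matrix (Fin n) (Fin n) F) := by
    have h4 := congrArg (fun g : GL (Fin n) F => (g : Matrix (Fin n) (Fin n) F)) hu
    simp only [Units.val_mul, coe_scal] at h4
    rw [Matrix.scalar_apply, ← Matrix.smul_one_eq_diagonal, Matrix.smul_mul, one_mul] at h4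
    exact h4
  exact (pr_eq_of_smul h3).symm

section R0

variable {k c : ℕ} {L : Type} [Field L] [Algebra F L] {τ : L ≃ₐ[F] L} {ζ : L}

/-- `C_G(⟨v, x⟩)` -/
def CD (e : K ≃* PSLn) (s X : SLn) : Subgroup G :=
  centralizer ({el e (pr s)} : Set G) ⊓ centralizer ({el e (pr X)} : Set G)

theorem mem_CD {e : K ≃* PSLn} {s X : SLn} {g : G} :
    g ∈ CD e s X ↔ Commute g (el e (pr s)) ∧ Commute g (el e (pr X)) := by
  rw [CD, mem_inf, mem_centralizer_singleton_iff, mem_centralizer_singleton_iff]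
  rfl

theorem comm_el {e : K ≃* PSLn} {Y Z : SLn} (h : Y * Z = Z * Y) : Commute (el e (pr Y)) (el e (pr Z)) := by
  show _ * _ = _ * _
  rw [← map_mul, ← map_mul, ← map_mul, ← map_mul, h]

theorem el_mem_CD {e : K ≃* PSLn} {s X Y : SLn} (h1 : Y * s = s * Y) (h2 : Y * X = X * Y) :
    el e (pr Y) ∈ CD e s X := mem_CD.2 ⟨comm_el h1, comm_el h2⟩

/-- **No inner elements.** -/
theorem R0 (h : Cx V K) (e : K ≃* PSLn) (hn : 2 ≤ n) (hF : Fd F k L τ ζ)
    (Φ : (Fin n → F) ≃ₗ[F] (L × (Fin c → F))) {s : SLn}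
    (hΦ : ∀ x, Φ ((s : Matrix (Fin n) (Fin n) F) *ᵥ x) = (τ (Φ x).1, (Φ x).2)) :
    ∀ r ∈ O2 (CD e s (hF.X Φ)), r ∈ K → r = 1 := by
  haveI : Nonempty (Fin n) := ⟨⟨0, by omega⟩⟩
  apply O2_inf_of_invol
  intro r hr hrK hrr
  obtain ⟨y, rfl⟩ := exists_el e hrK
  have hyy : y * y = 1 := by
    apply el_injective e
    rw [map_mul, hrr, map_one]
  obtain ⟨R, hR, rfl⟩ := exists_lift hn y hyy
  set X := hF.X Φ with hX
  have hC := mem_CD.1 (O2_le _ hr)
  have hinv : R⁻¹ = R := by rw [inv_eq_iff_mul_eq_one]; exact hR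
  have hRR : (R : Matrix (Fin n) (Fin n) F) * R = 1 := by
    rw [← Matrix.SpecialLinearGroup.coe_mul, hR, Matrix.SpecialLinearGroup.coe_one]
  -- exactness
  have hcm : ∀ Y : SLn, Commute (el e (pr R)) (el e (pr Y)) → pr (MulAut.conj R Y) = pr Y := by
    intro Y hY
    apply el_injective e
    rw [MulAut.conj_apply, map_mul, map_mul, map_inv, map_mul, map_mul, map_inv, hY.eq, mul_inv_cancel_right]
  obtain ⟨h1, h2⟩ := exact_of_pr (MulAut.conj R) (hF.s_sq Φ hΦ) (hF.s_X_s Φ hΦ) (hcm _ hC.1) (hcm _ hC.2)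
  rw [MulAut.conj_apply, mul_inv_eq_iff_eq_mul] at h1 h2
  -- blocks
  let A : (L × (Fin c → F)) →ₗ[F] (L × (Fin c → F)) :=
    (Φ : (Fin n → F) →ₗ[F] (L × (Fin c → F))) ∘ₗ Matrix.toLin' (R : Matrix (Fin n) (Fin n) F) ∘ₗ
      (Φ.symm : (L × (Fin c → F)) →ₗ[F] (Fin n → F))
  have hA : ∀ x, Φ ((R : Matrix (Fin n) (Fin n) F) *ᵥ x) = A (Φ x) := by
    intro x
    show _ = Φ (Matrix.toLin' (R : Matrix (Fin n) (Fin n) F) (Φ.symm (Φ x)))
    rw [LinearEquiv.symm_apply_apply]
    rfl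
  have hAX : ∀ p, A (Am F c ζ p) = Am F c ζ (A p) := by
    intro p
    obtain ⟨x, rfl⟩ := Φ.surjective p
    have h3 : Am F c ζ (Φ x) = Φ ((X : Matrix (Fin n) (Fin n) F) *ᵥ x) := (hF.X_mulVec Φ x).symm
    have h4 : Am F c ζ (A (Φ x)) = Φ ((X : Matrix (Fin n) (Fin n) F) *ᵥ ((R : Matrix (Fin n) (Fin n) F) *ᵥ x)) := by
      rw [hF.X_mulVec, hA]; rfl
    rw [h3, h4, ← hA, ← sl_mul_mulVec, ← sl_mul_mulVec, h2]
  have hAA : ∀ p, A (A p) = p := by
    intro p
    obtain ⟨x, rfl⟩ := Φ.surjective p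
    rw [← hA, ← hA, ← sl_mul_mulVec, hR, Matrix.SpecialLinearGroup.coe_one, one_mulVec]
  obtain ⟨u, B, hAB⟩ := hF.block A hAX
  have hu : u = 1 := by
    have h3 := hAA (1, 0)
    rw [hAB, hAB, one_mul] at h3
    have h4 : u * u = 1 := congrArg Prod.fst h3
    haveI : CharP L 2 := charP_of_injective_algebraMap (algebraMap F L).injective 2
    exact eq_one_of_sq h4
  have hBB : ∀ z, B (B z) = z := by
    intro z
    have h3 := hAA (0, z)
    rw [hAB, hAB] at h3
    exact congrArg Prod.snd h3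
  have hAB' : ∀ p, A p = Bm L B p := by
    rintro ⟨l, z⟩
    rw [hAB, hu, mul_one]; rfl
  by_cases hB1 : B = LinearMap.id
  · -- `R = 1`
    have h3 : R = 1 := by
      apply sl_ext' Φ
      intro x
      rw [hA, hAB', hB1, Matrix.SpecialLinearGroup.coe_one, one_mulVec]
      rfl
    rw [h3, map_one, map_one]
  · exfalso
    obtain ⟨D, m, hm, hDm, hD1, hBD⟩ := exists_inv B hBB hB1
    have hdet : LinearMap.det (Bm L D) = 1 := by
      apply det_eq_one_of_inv (S := Bm L B)
      · intro p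
        refine Prod.ext rfl ?_
        exact hBB _
      · intro p
        refine Prod.ext rfl ?_
        exact hBD _
    set Y := mkS Φ (Bm L D) hdet with hY
    have hYv : ∀ x, Φ ((Y : Matrix (Fin n) (Fin n) F) *ᵥ x) = ((Φ x).1, D (Φ x).2) :=
      fun x => mkS_mulVec' Φ (Bm L D) hdet x
    have hpow : (Bm L D) ^ m = 1 := by
      have h3 : ∀ j, (Bm L D) ^ j = Bm L (D ^ j) := by
        intro j
        induction j with
        | zero =>
          rw [pow_zero, pow_zero]
          apply LinearMap.ext; intro p; simp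
        | succ j ih =>
          rw [pow_succ, ih, pow_succ]
          apply LinearMap.ext; intro p
          rfl
      rw [h3, hDm]
      apply LinearMap.ext; intro p; simp
    have hYm : Y ^ m = 1 := mkS_pow_eq_one Φ _ _ hpow
    have hYs : Y * s = s * Y := by
      apply sl_ext' Φ
      intro x
      rw [sl_mul_mulVec, sl_mul_mulVec, hYv, hΦ, hΦ, hYv]
    have hYX : Y * X = X * Y := by
      apply sl_ext' Φ
      intro x
      rw [sl_mul_mulVec, sl_mul_mulVec, hYv, hF.X_mulVec, hF.X_mulVec, hYv]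
    have hRY : R * Y * R⁻¹ = Y⁻¹ := by
      rw [hinv, eq_inv_iff_mul_eq_one]
      apply sl_ext' Φ
      intro x
      rw [sl_mul_mulVec, sl_mul_mulVec, sl_mul_mulVec, hA, hYv, hA, hYv, hAB', hAB', Matrix.SpecialLinearGroup.coe_one,
        one_mulVec]
      refine Prod.ext rfl ?_
      exact hBD _
    have hmem := el_mem_CD (e := e) hYs hYX
    have hodd : Odd (orderOf (el e (pr Y))) := odd_of_pow hm (by rw [← map_pow, ← map_pow, hYm, map_one, map_one])
    have hi : el e (pr R) * el e (pr Y) * (el e (pr R))⁻¹ = (el e (pr Y))⁻¹ := by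
      rw [← map_inv, ← map_inv, ← map_mul, ← map_mul, ← map_mul, ← map_mul, hRY, map_inv, map_inv]
    have h5 := eq_one_of_inv hr hmem hodd hi
    have h6 : pr Y = 1 := el_injective e (by rw [h5, map_one])
    have h7 : pr (1 : SLn) = pr Y := by rw [h6, map_one]
    obtain ⟨d, hd⟩ := exists_smul_of_pr_eq h7
    have h8 : ∀ x, Φ ((Y : Matrix (Fin n) (Fin n) F) *ᵥ x) = d • Φ x := by
      intro x
      rw [hd, Matrix.smul_mulVec, Matrix.SpecialLinearGroup.coe_one, one_mulVec, map_smul]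
    have h9 : d = 1 := by
      have h10 := h8 (Φ.symm (1, 0))
      rw [hYv, LinearEquiv.apply_symm_apply] at h10
      have h11 := congrArg Prod.fst h10
      simp only [Prod.smul_mk] at h11
      rw [Algebra.smul_def, mul_one, ← map_one (algebraMap F L)] at h11
      exact ((algebraMap F L).injective h11).symm
    apply hD1
    apply LinearMap.ext
    intro z
    have h10 := h8 (Φ.symm (0, z))
    rw [hYv, LinearEquiv.apply_symm_apply, h9, one_smul] at h10
    exact congrArg Prod.snd h10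

end R0

end Cfsg.Agent.H284.SK
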