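import Cfsg.Agent.H284.SK.PslA

/-!
# S3010 (Sidki pairs), `K = PSL_n(q)`, `q` even: the outer element (helper284)

`outer`: if `v = s ∈ V` is an involution of `SL_n(F)`, then some `w ∈ V` is a bilinear polarity (`act w = Ψ(g) ι`, `g`
symmetric) that commutes with `v`, `x` and all of `C_K(⟨v, x⟩)`.
-/

set_option autoImplicit false
set_option linter.unusedVariables false
set_option linter.unusedSectionVars false
set_option linter.style.haveILetI false

universe u

open Matrix Subgroup Cfsg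
open Cfsg.Agent.H282.SK
open Cfsg.Agent.ClassicalGeometry.AutPSL.Root
open Cfsg.Agent.ClassicalGeometry.AutPSL.Auto
open Cfsg.Agent.H199.PslAut

namespace Cfsg.Agent.H284.SK

variable {F : Type*} [Field F] {n : ℕ}

local notation "PSLn" => Matrix.ProjectiveSpecialLinearGroup (Fin n) F
local notation "SLn" => Matrix.SpecialLinearGroup (Fin n) F
local notation "Mn" => Matrix (Fin n) (Fin n) F

section rel

theorem phi_one : phi n F 1 = 1 := map_one _

theorem sq_semi (g : GL (Fin n) F) (σ : F ≃+* F) :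
    (Psi n F g * phi n F σ) * (Psi n F g * phi n F σ) = Psi n F (g * mapGL σ g) * phi n F (σ * σ) := by
  calc (Psi n F g * phi n F σ) * (Psi n F g * phi n F σ) = Psi n F g * (phi n F σ * Psi n F g) * phi n F σ := by
        simp only [mul_assoc]
    _ = _ := by rw [phi_mul_Psi, map_mul, map_mul]; simp only [mul_assoc]

theorem sq_pol (g : GL (Fin n) F) (σ : F ≃+* F) :
    (Psi n F g * phi n F σ * iot n F) * (Psi n F g * phi n F σ * iot n F) =
      Psi n F (g * mapGL σ (itGL g)) * phi n F (σ * σ) := by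
  calc (Psi n F g * phi n F σ * iot n F) * (Psi n F g * phi n F σ * iot n F)
      = Psi n F g * phi n F σ * (iot n F * Psi n F g) * (phi n F σ * iot n F) := by
        simp only [mul_assoc]
    _ = Psi n F g * (phi n F σ * Psi n F (itGL g)) * (iot n F * phi n F σ) * iot n F := by
        rw [iot_mul_Psi]; simp only [mul_assoc]
    _ = Psi n F g * Psi n F (mapGL σ (itGL g)) * phi n F σ * phi n F σ * (iot n F * iot n F) := by
        rw [iot_mul_phi, phi_mul_Psi]; simp only [mul_assoc]
    _ = _ := by rw [iot_mul_iot, mul_one, map_mul, map_mul]; simp only [mul_assoc]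

end rel

section poly

variable {c : ℕ} {L : Type} [Field L] [Algebra F L]

/-- polynomials in a matrix acting as `(ξ, 1)` -/
theorem aeval_mulVec (Φ : (Fin n → F) ≃ₗ[F] (L × (Fin c → F))) {Z : Mn} {ξ : L}
    (hZ : ∀ x, Φ (Z *ᵥ x) = (ξ * (Φ x).1, (Φ x).2)) (q : Polynomial F) (x : Fin n → F) :
    Φ ((Polynomial.aeval Z q) *ᵥ x) = (Polynomial.aeval ξ q * (Φ x).1, q.eval 1 • (Φ x).2) := by
  induction q using Polynomial.induction_on' generalizing x with
  | add p q hp hq =>
    rw [map_add, add_mulVec, map_add, hp, hq, map_add, Polynomial.eval_add, add_mul, add_smul]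
    rfl
  | monomial m a =>
    have h1 : ∀ (m : ℕ) x, Φ ((Z ^ m) *ᵥ x) = (ξ ^ m * (Φ x).1, (Φ x).2) := by
      intro m
      induction m with
      | zero => intro x; simp
      | succ m ih =>
        intro x
        rw [pow_succ, ← mulVec_mulVec, ih, hZ, pow_succ, mul_assoc]
    rw [Polynomial.aeval_monomial, Polynomial.aeval_monomial, Polynomial.eval_monomial, one_pow, mul_one,
      ← Algebra.smul_def, ← Algebra.smul_def, smul_mulVec, map_smul, h1, smul_mul_assoc]
    rfl

/-- semilinear maps and polynomials -/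
theorem map_aeval (σ : F ≃+* F) (ρ : Mn →+ Mn) (hρ : ∀ (a : F) (A : Mn), ρ (a • A) = σ a • ρ A) {X Z : Mn}
    (hX : ∀ m : ℕ, ρ (X ^ m) = Z ^ m) (q : Polynomial F) :
    ρ (Polynomial.aeval X q) = Polynomial.aeval Z (q.map (σ : F →+* F)) := by
  induction q using Polynomial.induction_on' with
  | add p q hp hq => rw [map_add, map_add, hp, hq, Polynomial.map_add, map_add]
  | monomial m a =>
    rw [Polynomial.map_monomial, Polynomial.aeval_monomial, Polynomial.aeval_monomial, ← Algebra.smul_def,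
      ← Algebra.smul_def, hρ, hX]
    rfl

variable {k : ℕ} {τ : L ≃ₐ[F] L} {ζ : L}

/-- the minimal polynomial kills semilinear maps -/
theorem Fd.no_semi (hF : Fd F k L τ ζ) (Φ : (Fin n → F) ≃ₗ[F] (L × (Fin c → F))) (σ : F ≃+* F)
    (hσ : σ * σ = 1) (hσ1 : σ ≠ 1) (ρ : Mn →+ Mn) (hρ : ∀ (a : F) (A : Mn), ρ (a • A) = σ a • ρ A) {X Z : Mn} {ξ : L}
    (hX : ∀ x, Φ (X *ᵥ x) = (ζ * (Φ x).1, (Φ x).2)) (hZ : ∀ x, Φ (Z *ᵥ x) = (ξ * (Φ x).1, (Φ x).2))
    (hξ : ξ = ζ ∨ ξ = τ ζ) (hXZ : ∀ m : ℕ, ρ (X ^ m) = Z ^ m) : False := by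
  set p := minpoly F ζ with hp
  have h1 : Polynomial.aeval X (p * (Polynomial.X - 1)) = 0 := by
    apply Matrix.mulVec_injective
    funext x
    apply Φ.injective
    rw [aeval_mulVec Φ hX, map_mul, hp, minpoly.aeval, zero_mul, zero_mul, zero_mulVec, map_zero]
    refine Prod.ext rfl ?_
    simp
  have h2 : Polynomial.aeval Z ((p * (Polynomial.X - 1)).map (σ : F →+* F)) = 0 := by
    rw [← map_aeval σ ρ hρ hXZ, h1, map_zero]
  have h3 := aeval_mulVec Φ hZ ((p * (Polynomial.X - 1)).map (σ : F →+* F)) (Φ.symm (1, 0))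
  rw [h2, zero_mulVec, map_zero, LinearEquiv.apply_symm_apply] at h3
  have h4 := congrArg Prod.fst h3
  simp only [mul_one, Prod.fst_zero] at h4
  rw [Polynomial.map_mul, map_mul, Polynomial.map_sub, Polynomial.map_X, Polynomial.map_one, map_sub,
    Polynomial.aeval_X, map_one] at h4
  have h5 := hF.mn σ hσ hσ1
  rcases hξ with rfl | rfl
  · rcases mul_eq_zero.1 h4.symm with h6 | h6
    · exact h5 h6
    · exact hF.sub_ne_zero h6
  · rcases mul_eq_zero.1 h4.symm with h6 | h6
    · apply h5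
      apply τ.injective
      rw [map_zero, ← h6, ← AlgEquiv.coe_toAlgHom, ← Polynomial.aeval_algHom_apply]
    · apply hF.sub_ne_zero
      apply τ.injective
      rw [map_sub, map_one, map_zero, h6]

end poly

section outer

variable [Finite F] [CharP F 2]
variable {G : Type u} [Group G] [Finite G] {V K : Subgroup G}
variable {k c : ℕ} {L : Type} [Field L] [Algebra F L] {τ : L ≃ₐ[F] L} {ζ : L}

theorem ne_one_of (hn : 2 ≤ n) {s : SLn} (hs : s * s = 1) (hs1 : s ≠ 1) : pr s ≠ 1 := by
  haveI : Nonempty (Fin n) := ⟨⟨0, by omega⟩⟩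
  intro h
  have h7 : pr (1 : SLn) = pr s := by rw [h, map_one]
  obtain ⟨d, hd⟩ := exists_smul_of_pr_eq h7
  apply hs1
  have h8 : (s : Mn) * s = (d * d) • (1 : Mn) := by
    rw [hd, Matrix.SpecialLinearGroup.coe_one, smul_mul_assoc, mul_smul_comm, one_mul, smul_smul]
  rw [← Matrix.SpecialLinearGroup.coe_mul, hs, Matrix.SpecialLinearGroup.coe_one] at h8
  have i : Fin n := Classical.arbitrary _
  have h3 := congrFun (congrFun h8 i) i
  rw [Matrix.smul_apply, one_apply_eq, smul_eq_mul, mul_one] at h3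
  have h4 := eq_one_of_sq h3.symm
  apply Subtype.ext
  rw [h4, one_smul] at hd
  exact hd

theorem inv_matrix (X : SLn) : ((X⁻¹ : SLn) : Mn) = (X : Mn)⁻¹ := by
  symm
  apply Matrix.inv_eq_right_inv
  rw [← Matrix.SpecialLinearGroup.coe_mul, mul_inv_cancel, Matrix.SpecialLinearGroup.coe_one]

/-- the data of the outer element -/
structure Pol (h : Cx V K) (e : K ≃* PSLn) (s X : SLn) (w : G) (g : GL (Fin n) F) : Prop where
  memV : w ∈ V
  three : 3 ≤ n
  symm : (g : Mn)ᵀ = (g : Mn)
  act : act h e w = Psi n F g * iot n F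
  fixs : cj g (itr s) = s
  fixX : cj g (itr X) = X
  fix : ∀ Y : SLn, Y * s = s * Y → Y * X = X * Y → ∃ d : F, (Y : Mn) = d • (cj g (itr Y) : Mn)

theorem outer (h : Cx V K) (e : K ≃* PSLn) (hn : 2 ≤ n) (hF : Fd F k L τ ζ)
    (Φ : (Fin n → F) ≃ₗ[F] (L × (Fin c → F))) {s : SLn} (hs1 : s ≠ 1)
    (hΦ : ∀ x, Φ ((s : Mn) *ᵥ x) = (τ (Φ x).1, (Φ x).2)) (hv : el e (pr s) ∈ V) :
    ∃ (w : G) (g : GL (Fin n) F), Pol h e s (hF.X Φ) w g := by
  haveI : Nonempty (Fin n) := ⟨⟨0, by omega⟩⟩
  set X := hF.X Φ with hXd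
  have hs : s * s = 1 := hF.s_sq Φ hΦ
  have hsX : s * X * s = X⁻¹ := hF.s_X_s Φ hΦ
  have hsi : s⁻¹ = s := by rw [inv_eq_iff_mul_eq_one]; exact hs
  have hv1 : el e (pr s) ≠ 1 := by
    intro h1
    exact ne_one_of hn hs hs1 (el_injective e (by rw [h1, map_one]))
  have hodd : Odd (orderOf (el e (pr X))) :=
    odd_of_pow hF.odd (by rw [← map_pow, ← map_pow, hXd, hF.X_pow, map_one, map_one])
  have hinv : el e (pr s) * el e (pr X) * (el e (pr s))⁻¹ = (el e (pr X))⁻¹ := by
    rw [← map_inv, ← map_inv, ← map_mul, ← map_mul, ← map_mul, ← map_mul, hsi, hsX, map_inv, map_inv]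
  obtain ⟨w, hwV, hw1, hwx, hwO⟩ := h.t1 hv hv1 hodd hinv
  have h0 := R0 h e hn hF Φ hΦ
  have hwK : w ∉ K := fun hK => hw1 (h0 w hwO hK)
  have hcomm : ∀ Y : SLn, Y * s = s * Y → Y * X = X * Y → act h e w (pr Y) = pr Y := by
    intro Y h1 h2
    rw [act_apply_eq_iff]
    exact comm_of_O2 h h0 hwO (el_mem_CD h1 h2) (el_mem e _)
  have hwv : Commute w (el e (pr s)) := h.comm hwV hv
  have hfs : act h e w (pr s) = pr s := (act_apply_eq_iff h e).2 hwv
  have hfX : act h e w (pr X) = pr X := (act_apply_eq_iff h e).2 hwx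
  have hsq : act h e w * act h e w = 1 := by rw [← map_mul, h.sq hwV, map_one]
  have hXm : ∀ x, Φ ((X : Mn) *ᵥ x) = (ζ * (Φ x).1, (Φ x).2) := hF.X_mulVec Φ
  haveI : Fintype F := Fintype.ofFinite F
  rcases exists_form hn (act h e w) with ⟨g, σ, hα⟩ | ⟨h3, g, σ, hα⟩
  · -- semilinear
    exfalso
    rw [hα, sq_semi] at hsq
    obtain ⟨-, hσ⟩ := Psi_phi_eq (τ := 1) hn (by rw [hsq, phi_one])
    by_cases hσ1 : σ = 1
    · subst hσ1
      rw [phi_one, mul_one] at hα
      have h4 : Psi n F g * Psi n F g = 1 := by rw [← hα, ← map_mul, h.sq hwV, map_one]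
      obtain ⟨R, hR, hRg⟩ := exists_sl_of_sq hn g h4
      have h5 : act h e w = act h e (el e (pr R)) := by rw [hα, ← hRg, Psi_coe, act_el']
      have h6 := act_injective h e h5
      exact hwK (h6 ▸ el_mem e _)
    · have hψ : ∀ Y : SLn, act h e w (pr Y) = pr ((cj g * fld σ : MulAut SLn) Y) := by
        intro Y; rw [hα]; rfl
      obtain ⟨-, hX2⟩ := exact_of_pr (cj g * fld σ : MulAut SLn) hs hsX (by rw [← hψ, hfs]) (by rw [← hψ, hfX])
      let ρ : Mn →+ Mn :=
        { toFun := fun A => (g : Mn) * A.map σ * ((g⁻¹ : GL (Fin n) F) : Mn)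
          map_zero' := by
            rw [Matrix.map_zero _ (map_zero σ), mul_zero, zero_mul]
          map_add' := by
            intro A B
            rw [Matrix.map_add _ (map_add σ), mul_add, add_mul] }
      have hρ : ∀ (a : F) (A : Mn), ρ (a • A) = σ a • ρ A := by
        intro a A
        show (g : Mn) * (a • A).map σ * _ = σ a • ((g : Mn) * A.map σ * _)
        have : (a • A).map σ = σ a • A.map σ := by
          ext i j; simp
        rw [this, mul_smul_comm, smul_mul_assoc]
      have hρX : ∀ m : ℕ, ρ ((X : Mn) ^ m) = (X : Mn) ^ m := by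
        intro m
        have h5 : (cj g * fld σ : MulAut SLn) (X ^ m) = X ^ m := by rw [map_pow, hX2]
        have h6 := congrArg (fun Y : SLn => (Y : Mn)) h5
        simp only [Matrix.SpecialLinearGroup.coe_pow] at h6
        refine Eq.trans ?_ h6
        show (g : Mn) * ((X : Mn) ^ m).map σ * _ = (g : Mn) * (((X ^ m : SLn) : Mn)).map σ * _
        rw [Matrix.SpecialLinearGroup.coe_pow]
      exact hF.no_semi Φ σ hσ hσ1 ρ hρ hXm hXm (Or.inl rfl) hρX
  · -- polarity
    rw [hα, sq_pol] at hsq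
    obtain ⟨⟨u, hu⟩, hσ⟩ := Psi_phi_eq (τ := 1) hn (by rw [hsq, phi_one])
    have hψ : ∀ Y : SLn, act h e w (pr Y) = pr ((cj g * fld σ * itr : MulAut SLn) Y) := by
      intro Y; rw [hα]; rfl
    obtain ⟨hs2, hX2⟩ := exact_of_pr (cj g * fld σ * itr : MulAut SLn) hs hsX (by rw [← hψ, hfs]) (by rw [← hψ, hfX])
    by_cases hσ1 : σ = 1
    · subst hσ1
      have hf1 : (fld 1 : MulAut SLn) = 1 := map_one _
      rw [hf1, mul_one] at hψ hs2 hX2
      rw [phi_one, mul_one] at hα
      have hsym : (g : Mn)ᵀ = (g : Mn) := by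
        have h5 : mapGL (1 : F ≃+* F) (itGL g) = itGL g := by
          apply Units.ext
          rw [coe_mapGL]
          ext i j; rfl
        rw [h5] at hu
        have h6 := congrArg (fun y : GL (Fin n) F => (y : Mn)) hu
        simp only [Units.val_mul, coe_itGL, coe_scal] at h6
        -- `g g^{-T} = u`
        have h7 : (g : Mn) = (u : F) • (g : Mn)ᵀ := by
          have h8 : (g : Mn) * (((g⁻¹ : GL (Fin n) F) : Mn)ᵀ * (g : Mn)ᵀ) = (u : F) • (g : Mn)ᵀ := by
            rw [← mul_assoc, h6, Matrix.scalar_apply, ← Matrix.smul_one_eq_diagonal, Matrix.smul_mul, one_mul]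
          rwa [← transpose_mul, ← Units.val_mul, mul_inv_cancel, Units.val_one, transpose_one, mul_one] at h8
        have h8 : (g : Mn) = ((u : F) * u) • (g : Mn) := by
          nth_rw 1 [h7]
          nth_rw 1 [h7]
          rw [transpose_smul, transpose_transpose, smul_smul]
        have h9 : (u : F) * u = 1 := by
          have h10 : (1 : Mn) = ((u : F) * u) • (1 : Mn) := by
            have h11 := congrArg (fun A : Mn => A * ((g⁻¹ : GL (Fin n) F) : Mn)) h8
            simp only [smul_mul_assoc] at h11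
            rwa [← Units.val_mul, mul_inv_cancel, Units.val_one] at h11
          have i : Fin n := Classical.arbitrary _
          have h11 := congrFun (congrFun h10 i) i
          rw [Matrix.smul_apply, one_apply_eq, smul_eq_mul, mul_one] at h11
          exact h11.symm
        have h10 := eq_one_of_sq h9
        rw [h10, one_smul] at h7
        exact h7.symm
      refine ⟨w, g, ⟨hwV, h3, hsym, hα, hs2, hX2, ?_⟩⟩
      intro Y h5 h6
      have h7 := hcomm Y h5 h6
      rw [hψ] at h7
      exact exists_smul_of_pr_eq h7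
    · exfalso
      let ρ : Mn →+ Mn :=
        { toFun := fun A => (g : Mn) * (A.map σ)ᵀ * ((g⁻¹ : GL (Fin n) F) : Mn)
          map_zero' := by
            rw [Matrix.map_zero _ (map_zero σ), transpose_zero, mul_zero, zero_mul]
          map_add' := by
            intro A B
            rw [Matrix.map_add _ (map_add σ), transpose_add, mul_add, add_mul] }
      have hρ : ∀ (a : F) (A : Mn), ρ (a • A) = σ a • ρ A := by
        intro a A
        show (g : Mn) * ((a • A).map σ)ᵀ * _ = σ a • ((g : Mn) * (A.map σ)ᵀ * _)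
        have : (a • A).map σ = σ a • A.map σ := by
          ext i j; simp
        rw [this, transpose_smul, mul_smul_comm, smul_mul_assoc]
      have hρX : ∀ m : ℕ, ρ ((X : Mn) ^ m) = ((X⁻¹ : SLn) : Mn) ^ m := by
        intro m
        have h5 : (cj g * fld σ * itr : MulAut SLn) ((X⁻¹) ^ m) = (X⁻¹) ^ m := by rw [map_pow, map_inv, hX2]
        have h6 := congrArg (fun Y : SLn => (Y : Mn)) h5
        simp only [Matrix.SpecialLinearGroup.coe_pow] at h6
        rw [← h6]
        show (g : Mn) * (((X : Mn) ^ m).map σ)ᵀ * _ = (g : Mn) * ((itr (X⁻¹ ^ m) : SLn) : Mn).map σ * _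
        rw [coe_itr, inv_pow, inv_inv, Matrix.SpecialLinearGroup.coe_pow]
        rfl
      have hZ : ∀ x, Φ (((X⁻¹ : SLn) : Mn) *ᵥ x) = (τ ζ * (Φ x).1, (Φ x).2) := by
        intro x
        rw [← hsX, sl_mul_mulVec, sl_mul_mulVec, hΦ, hXm, hΦ, map_mul, hF.tt]
      exact hF.no_semi Φ σ hσ hσ1 ρ hρ hXm hZ (Or.inr rfl) hρX

end outer

end Cfsg.Agent.H284.SK
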