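import Cfsg.Agent.H284.SK.PslB

/-!
# S3010 (Sidki pairs), `K = PSL_n(q)`, `q` even: the bilinear form of the outer element (helper284)
-/

set_option autoImplicit false
set_option linter.unusedVariables false
set_option linter.unusedSectionVars false
set_option linter.style.haveILetI false

universe u

open Matrix Subgroup Cfsg
open Cfsg.Agent.H282.SK
open Cfsg.Agent.ClassicalGeometry.AutPSL.Root
open Cfsg.Agent.ClassicalGeometry.AutPSL.Auto
open Cfsg.Agent.H199.PslAut

namespace Cfsg.Agent.H284.SK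

variable {F : Type*} [Field F] {n : ℕ}

local notation "PSLn" => Matrix.ProjectiveSpecialLinearGroup (Fin n) F
local notation "SLn" => Matrix.SpecialLinearGroup (Fin n) F
local notation "Mn" => Matrix (Fin n) (Fin n) F

section BF

variable {k c : ℕ} {L : Type} [Field L] [Algebra F L]

/-- a symmetric nondegenerate form on `L × F^c` invariant under `(ζ, 1)` and `(τ, 1)` -/
structure BF (c : ℕ) (τ : L ≃ₐ[F] L) (ζ : L) (b : LinearMap.BilinForm F (L × (Fin c → F))) : Prop where
  symm : ∀ p q, b p q = b q p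
  nd : ∀ p, (∀ q, b p q = 0) → p = 0
  invX : ∀ p q, b (Am F c ζ p) (Am F c ζ q) = b p q
  invT : ∀ p q, b (Tm F c τ p) (Tm F c τ q) = b p q

variable {τ : L ≃ₐ[F] L} {ζ : L} {b : LinearMap.BilinForm F (L × (Fin c → F))}

theorem BF.orth (hb : BF c τ ζ b) (hF : Fd F k L τ ζ) (l : L) (z : Fin c → F) : b (l, 0) (0, z) = 0 := by
  have h1 := hb.invX (l / (ζ - 1), 0) (0, z)
  simp only [Am_apply, mul_zero] at h1
  have h2 : b ((l, 0) : L × (Fin c → F)) (0, z) = b (ζ * (l / (ζ - 1)), 0) (0, z) - b (l / (ζ - 1), 0) (0, z) := by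
    rw [← LinearMap.sub_apply, ← map_sub]
    congr 2
    refine Prod.ext ?_ (by simp)
    show l = ζ * (l / (ζ - 1)) - l / (ζ - 1)
    have h4 := hF.sub_ne_zero
    field_simp
  rw [h2, h1, sub_self]

theorem BF.orth' (hb : BF c τ ζ b) (hF : Fd F k L τ ζ) (l : L) (z : Fin c → F) : b (0, z) (l, 0) = 0 := by
  rw [hb.symm, hb.orth hF]

/-- the adjoint of `a ∈ L` is `τ a` -/
theorem BF.adj (hb : BF c τ ζ b) (hF : Fd F k L τ ζ) (a l l' : L) :
    b (a * l, 0) (l', 0) = b (l, 0) (τ a * l', 0) := by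
  let S : Subalgebra F L :=
    { carrier := {a | ∀ l l' : L, b (a * l, 0) (l', 0) = b (l, 0) (τ a * l', 0)}
      mul_mem' := by
        intro x y hx hy l l'
        have h1 := hx (y * l) l'
        have h2 := hy l (τ x * l')
        rw [mul_assoc, h1, h2, map_mul, ← mul_assoc, mul_comm (τ y)]
      add_mem' := by
        intro x y hx hy l l'
        have h3 : (((x + y) * l, 0) : L × (Fin c → F)) = (x * l, 0) + (y * l, 0) := by
          refine Prod.ext ?_ (by simp)
          show (x + y) * l = x * l + y * l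
          ring
        have h4 : ((τ (x + y) * l', 0) : L × (Fin c → F)) = (τ x * l', 0) + (τ y * l', 0) := by
          refine Prod.ext ?_ (by simp)
          show τ (x + y) * l' = τ x * l' + τ y * l'
          rw [map_add]; ring
        have h1 := hx l l'
        have h2 := hy l l'
        rw [h3, h4, map_add, map_add, LinearMap.add_apply, h1, h2]
      algebraMap_mem' := by
        intro r l l'
        have h3 : ((algebraMap F L r * l, 0) : L × (Fin c → F)) = r • (l, 0) := by
          refine Prod.ext ?_ (by simp)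
          show algebraMap F L r * l = r • l
          rw [Algebra.smul_def]
        have h4 : ((τ (algebraMap F L r) * l', 0) : L × (Fin c → F)) = r • (l', 0) := by
          refine Prod.ext ?_ (by simp)
          show τ (algebraMap F L r) * l' = r • l'
          rw [AlgEquiv.commutes, Algebra.smul_def]
        rw [h3, h4, map_smul, map_smul, LinearMap.smul_apply] }
  have hζ : ζ ∈ S := by
    intro l l'
    have h1 := hb.invX (l, 0) (τ ζ * l', 0)
    simp only [Am_apply] at h1
    rw [← h1, hF.inv, ← mul_assoc, mul_inv_cancel₀ hF.zeta_ne_zero, one_mul]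
  exact hF.induct S hζ a l l'

theorem BF.ndL (hb : BF c τ ζ b) (hF : Fd F k L τ ζ) {l : L} (h : ∀ l', b (l, 0) (l', 0) = 0) : l = 0 := by
  have h1 : ((l, 0) : L × (Fin c → F)) = 0 := by
    apply hb.nd
    rintro ⟨l', z⟩
    have h2 : ((l', z) : L × (Fin c → F)) = (l', 0) + (0, z) := by simp
    rw [h2, map_add, h, hb.orth hF, add_zero]
  exact congrArg Prod.fst h1

theorem BF.ndC (hb : BF c τ ζ b) (hF : Fd F k L τ ζ) {z : Fin c → F} (h : ∀ z', b (0, z) (0, z') = 0) : z = 0 := by
  have h1 : ((0, z) : L × (Fin c → F)) = 0 := by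
    apply hb.nd
    rintro ⟨l', z'⟩
    have h2 : ((l', z') : L × (Fin c → F)) = (l', 0) + (0, z') := by simp
    rw [h2, map_add, h, hb.orth' hF, add_zero]
  exact congrArg Prod.snd h1

/-- `e ∈ L` with `τ e = e` that is a similitude on `L` lies in `F` -/
theorem BF.no_e [Finite F] [CharP F 2] (hb : BF c τ ζ b) (hF : Fd F k L τ ζ) {e : L} (he : τ e = e) {d : F}
    (h : ∀ l l', b (e * l, 0) (e * l', 0) = d * b (l, 0) (l', 0)) : ∃ r : F, e = algebraMap F L r := by
  haveI : Fintype F := Fintype.ofFinite F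
  have h1 : e * e = algebraMap F L d := by
    have h2 : e * e - algebraMap F L d = 0 := by
      apply hb.ndL hF
      intro l'
      have h3 := h 1 l'
      rw [mul_one] at h3
      have h4 : b (e * e, 0) (l', 0) = b (e, 0) (e * l', 0) := by
        rw [hb.adj hF, he]
      have h5 : ((e * e - algebraMap F L d, 0) : L × (Fin c → F)) = (e * e, 0) - d • (1, 0) := by
        refine Prod.ext ?_ (by simp)
        show e * e - algebraMap F L d = e * e - d • (1 : L)
        rw [Algebra.smul_def, mul_one]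
      rw [h5, map_sub, map_smul, LinearMap.sub_apply, LinearMap.smul_apply, h4, h3, smul_eq_mul, sub_self]
    exact sub_eq_zero.1 h2
  have hch : ringChar F = 2 := ringChar.eq F 2
  obtain ⟨t, ht⟩ := FiniteField.isSquare_of_char_two hch d
  refine ⟨t, ?_⟩
  haveI : CharP L 2 := charP_of_injective_algebraMap (algebraMap F L).injective 2
  have h2 : (2 : L) = 0 := CharTwo.two_eq_zero
  have h3 : (e - algebraMap F L t) * (e - algebraMap F L t) = 0 := by
    rw [ht, map_mul] at h1
    linear_combination h1 - (algebraMap F L t) * (e - algebraMap F L t) * h2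
  rcases mul_eq_zero.1 h3 with h4 | h4 <;> exact sub_eq_zero.1 h4

/-- no transvection group: dimension at least 3 -/
theorem BF.no_tr (hb : BF c τ ζ b) (hF : Fd F k L τ ζ) (hc : 3 ≤ c)
    (h : ∀ (ψ : (Fin c → F) →ₗ[F] F) (a : Fin c → F), ψ a = 0 →
      ∃ d : F, ∀ p q, b (p.1, p.2 + ψ p.2 • a) (q.1, q.2 + ψ q.2 • a) = d * b p q) : False := by
  -- a vector and one that is not orthogonal to it
  let a : Fin c → F := Pi.single ⟨0, by omega⟩ 1
  have ha : a ≠ 0 := by
    intro h0
    have := congrFun h0 ⟨0, by omega⟩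
    simp [a] at this
  obtain ⟨m, hm⟩ : ∃ m, b (0, a) (0, m) ≠ 0 := by
    by_contra hcon
    push Not at hcon
    exact ha (hb.ndC hF hcon)
  -- a functional vanishing on both
  have hlt : Submodule.span F {a, m} < ⊤ := by
    rw [lt_top_iff_ne_top]
    intro htop
    have h1 : Module.finrank F (Submodule.span F {a, m}) = c := by rw [htop, finrank_top, Module.finrank_fin_fun]
    have h2 : Module.finrank F (Submodule.span F ({a, m} : Set (Fin c → F))) ≤ 2 := by
      classical
      have h3 := finrank_span_finset_le_card (R := F) ({a, m} : Finset (Fin c → F))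
      rw [Finset.coe_insert, Finset.coe_singleton] at h3
      exact h3.trans Finset.card_le_two
    omega
  obtain ⟨ψ, hψ0, hψ⟩ := Submodule.exists_le_ker_of_lt_top _ hlt
  have hψa : ψ a = 0 := hψ (Submodule.subset_span (by simp))
  have hψm : ψ m = 0 := hψ (Submodule.subset_span (by simp))
  obtain ⟨z, hz⟩ : ∃ z, ψ z ≠ 0 := by
    by_contra hcon
    push Not at hcon
    exact hψ0 (LinearMap.ext hcon)
  obtain ⟨d, hd⟩ := h ψ a hψa
  -- `d = 1`
  have hL : ∃ l : L, b (1, 0) (l, 0) ≠ 0 := by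
    by_contra hcon
    push Not at hcon
    exact one_ne_zero (hb.ndL hF hcon)
  obtain ⟨l, hl⟩ := hL
  have hd1 : d = 1 := by
    have h1 := hd (1, 0) (l, 0)
    simp only [map_zero, zero_smul, add_zero] at h1
    exact mul_right_cancel₀ hl (by rw [one_mul]; exact h1.symm)
  have h1 := hd (0, m) (0, z)
  simp only [hψm, zero_smul, add_zero, hd1, one_mul] at h1
  have h2 : ((0, z + ψ z • a) : L × (Fin c → F)) = (0, z) + ψ z • (0, a) := by
    refine Prod.ext (by simp) rfl
  rw [h2, map_add, map_smul, add_eq_left, smul_eq_mul] at h1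
  rcases mul_eq_zero.1 h1 with h3 | h3
  · exact hz h3
  · rw [hb.symm] at h3; exact hm h3

/-- no scalars -/
theorem BF.no_sc [CharP F 2] (hb : BF c τ ζ b) (hF : Fd F k L τ ζ) (hc : 1 ≤ c) {r d : F} (hr : r ≠ 0) (hr1 : r ≠ 1)
    (h : ∀ p q, b (r⁻¹ • p.1, r • p.2) (r⁻¹ • q.1, r • q.2) = d * b p q) : False := by
  have hL : ∃ l : L, b (1, 0) (l, 0) ≠ 0 := by
    by_contra hcon
    push Not at hcon
    exact one_ne_zero (hb.ndL hF hcon)
  obtain ⟨l, hl⟩ := hL
  let a : Fin c → F := Pi.single ⟨0, by omega⟩ 1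
  have ha : a ≠ 0 := by
    intro h0
    have := congrFun h0 ⟨0, by omega⟩
    simp [a] at this
  obtain ⟨m, hm⟩ : ∃ m, b (0, a) (0, m) ≠ 0 := by
    by_contra hcon
    push Not at hcon
    exact ha (hb.ndC hF hcon)
  have h1 := h (1, 0) (l, 0)
  have h2 := h (0, a) (0, m)
  have e1 : ∀ x : L, ((r⁻¹ • x, r • (0 : Fin c → F)) : L × (Fin c → F)) = r⁻¹ • (x, 0) := by
    intro x; simp
  have e2 : ∀ x : Fin c → F, ((r⁻¹ • (0 : L), r • x) : L × (Fin c → F)) = r • (0, x) := by
    intro x; simp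
  simp only at h1 h2
  rw [e1, e1, map_smul, map_smul, LinearMap.smul_apply, smul_smul, smul_eq_mul] at h1
  rw [e2, e2, map_smul, map_smul, LinearMap.smul_apply, smul_smul, smul_eq_mul] at h2
  have h3 := mul_right_cancel₀ hl h1
  have h4 := mul_right_cancel₀ hm h2
  have h5 : r * r = r⁻¹ * r⁻¹ := by rw [h3, h4]
  have h6 : (r * r) * (r * r) = 1 := by
    nth_rw 1 [h5]
    field_simp
  exact hr1 (eq_one_of_sq (eq_one_of_sq h6))

end BF

section IV

variable {L : Type} [Field L] [Algebra F L] {τ : L ≃ₐ[F] L} {ζ : L} [CharP F 2]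

/-- fixed points of `τ` for `k = 1` -/
theorem Fd.fixed (hF : Fd F 1 L τ ζ) {l : L} (hl : τ l = l) : ∃ r : F, l = algebraMap F L r := by
  have h1 := hF.kr
  have h2 : (1 : L) ∈ LinearMap.ker (τ.toLinearMap - LinearMap.id) := by
    rw [LinearMap.mem_ker, LinearMap.sub_apply]
    show τ 1 - 1 = 0
    rw [map_one, sub_self]
  have h3 : l ∈ LinearMap.ker (τ.toLinearMap - LinearMap.id) := by
    rw [LinearMap.mem_ker, LinearMap.sub_apply]
    show τ l - l = 0
    rw [hl, sub_self]
  obtain ⟨r, hr⟩ := (finrank_eq_one_iff_of_nonzero' (⟨1, h2⟩ : LinearMap.ker (τ.toLinearMap - LinearMap.id))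
    (fun h => one_ne_zero (congrArg Subtype.val h))).1 h1 ⟨l, h3⟩
  refine ⟨r, ?_⟩
  have h4 : r • (1 : L) = l := congrArg Subtype.val hr
  rw [← h4, Algebra.smul_def, mul_one]

/-- the trace -/
theorem Fd.exists_tr (hF : Fd F 1 L τ ζ) : ∃ t : L →ₗ[F] F, (∀ l, algebraMap F L (t l) = l + τ l) := by
  have h1 : ∀ l, ∃ r : F, l + τ l = algebraMap F L r := fun l => hF.fixed (by rw [map_add, hF.tt, add_comm])
  choose f hf using h1
  refine ⟨{ toFun := f, map_add' := ?_, map_smul' := ?_ }, fun l => (hf l).symm⟩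
  · intro x y
    apply (algebraMap F L).injective
    rw [map_add, ← hf, ← hf, ← hf, map_add]
    ring
  · intro r x
    apply (algebraMap F L).injective
    show _ = algebraMap F L (r * f x)
    rw [map_mul, ← hf, ← hf, map_smul, Algebra.smul_def, Algebra.smul_def]
    ring

theorem Fd.tr_zeta (hF : Fd F 1 L τ ζ) {t : L →ₗ[F] F} (ht : ∀ l, algebraMap F L (t l) = l + τ l) : t ζ ≠ 0 := by
  intro h
  have h1 := ht ζ
  haveI : CharP L 2 := charP_of_injective_algebraMap (algebraMap F L).injective 2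
  rw [h, map_zero, hF.inv] at h1
  have h2 : ζ = ζ⁻¹ := by
    have h3 : ζ + ζ⁻¹ = 0 := h1.symm
    rw [← CharTwo.sub_eq_add, sub_eq_zero] at h3
    exact h3
  exact hF.ne_one (eq_one_of_eq_inv hF.zeta_ne_zero h2)

theorem Fd.tr_F (hF : Fd F 1 L τ ζ) {t : L →ₗ[F] F} (ht : ∀ l, algebraMap F L (t l) = l + τ l) (r : F) :
    t (algebraMap F L r) = 0 := by
  apply (algebraMap F L).injective
  haveI : CharP L 2 := charP_of_injective_algebraMap (algebraMap F L).injective 2
  rw [ht, AlgEquiv.commutes, map_zero, CharTwo.add_self_eq_zero]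

/-- the form on `L` for `k = 1` -/
theorem BF.form {c : ℕ} {b : LinearMap.BilinForm F (L × (Fin c → F))} (hb : BF c τ ζ b) (hF : Fd F 1 L τ ζ)
    {t : L →ₗ[F] F} (ht : ∀ l, algebraMap F L (t l) = l + τ l) :
    ∃ μ : F, μ ≠ 0 ∧ ∀ l l', b (l, 0) (l', 0) = μ * t (τ l' * l) := by
  haveI : CharP L 2 := charP_of_injective_algebraMap (algebraMap F L).injective 2
  set lam : L → F := fun l => b (l, 0) (1, 0) with hlam
  have h1 : ∀ l l', b (l, 0) (l', 0) = lam (τ l' * l) := by
    intro l l'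
    rw [hlam]
    show _ = b (τ l' * l, 0) (1, 0)
    rw [hb.adj hF, hF.tt, mul_one]
  have h2 : ∀ l, lam (τ l) = lam l := by
    intro l
    have h3 := hb.invT (l, 0) (1, 0)
    simp only [Tm_apply, map_one] at h3
    exact h3
  have hadd : ∀ l l', lam (l + l') = lam l + lam l' := by
    intro l l'
    show b (l + l', 0) (1, 0) = _
    have : ((l + l', 0) : L × (Fin c → F)) = (l, 0) + (l', 0) := by simp
    rw [this, map_add]; rfl
  have hsm : ∀ (r : F) l, lam (r • l) = r * lam l := by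
    intro r l
    show b (r • l, 0) (1, 0) = _
    have : ((r • l, 0) : L × (Fin c → F)) = r • (l, 0) := by simp
    rw [this, map_smul]; rfl
  have h3 : ∀ l, lam (l + τ l) = 0 := by
    intro l
    rw [hadd, h2, CharTwo.add_self_eq_zero]
  have h4 : ∀ l, t l * lam 1 = 0 := by
    intro l
    rw [← hsm, Algebra.smul_def, mul_one, ht, h3]
  have h5 : lam 1 = 0 := (mul_eq_zero.1 (h4 ζ)).resolve_left (hF.tr_zeta ht)
  have h6 : ∀ r : F, lam (algebraMap F L r) = 0 := by
    intro r
    have : algebraMap F L r = r • (1 : L) := by rw [Algebra.smul_def, mul_one]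
    rw [this, hsm, h5, mul_zero]
  have htz := hF.tr_zeta ht
  have h7 : ∀ l, lam l = (lam ζ / t ζ) * t l := by
    intro l
    have h8 : τ (l - (t l / t ζ) • ζ) = l - (t l / t ζ) • ζ := by
      have h9 : (l - (t l / t ζ) • ζ) + τ (l - (t l / t ζ) • ζ) = 0 := by
        rw [← ht, map_sub, map_smul, smul_eq_mul, div_mul_cancel₀ _ htz, sub_self, map_zero]
      rw [← CharTwo.sub_eq_add, sub_eq_zero] at h9
      exact h9.symm
    obtain ⟨r, hr⟩ := hF.fixed h8
    have h9 : l = algebraMap F L r + (t l / t ζ) • ζ := by rw [← hr]; ring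
    have h10 : lam l = lam (algebraMap F L r + (t l / t ζ) • ζ) := congrArg lam h9
    rw [h10, hadd, h6, zero_add, hsm]
    field_simp
  refine ⟨lam ζ / t ζ, ?_, fun l l' => by rw [h1, h7]⟩
  intro h0
  have h11 : ∀ l', b ((1 : L), (0 : Fin c → F)) (l', 0) = 0 := by
    intro l'
    rw [h1, h7, h0, zero_mul]
  exact one_ne_zero (hb.ndL hF h11)

/-- **The case `n = 3`.** -/
theorem no_three (hF : Fd F 1 L τ ζ) {b₁ b₂ : LinearMap.BilinForm F (L × (Fin 1 → F))} (hb₁ : BF 1 τ ζ b₁)
    (hb₂ : BF 1 τ ζ b₂) (T : (L × (Fin 1 → F)) →ₗ[F] (L × (Fin 1 → F))) {u : F} (hT : ∀ p, T (T p) = u • p)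
    (h : ∀ p q, b₂ (p.1 + algebraMap F L (p.2 0), p.2) (q.1 + algebraMap F L (q.2 0), q.2) = b₁ (T p) q) : False := by
  haveI : CharP L 2 := charP_of_injective_algebraMap (algebraMap F L).injective 2
  obtain ⟨t, ht⟩ := hF.exists_tr
  obtain ⟨μ₁, hμ₁, hf₁⟩ := hb₁.form hF ht
  obtain ⟨μ₂, hμ₂, hf₂⟩ := hb₂.form hF ht
  have htz := hF.tr_zeta ht
  have htτ : ∀ l, t (τ l) = t l := by
    intro l
    apply (algebraMap F L).injective
    rw [ht, ht, hF.tt, add_comm]
  set o : Fin 1 → F := fun _ => 1 with ho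
  have hz : ∀ z : Fin 1 → F, z = z 0 • o := by
    intro z
    funext i
    rw [Subsingleton.elim i 0]
    simp [ho]
  set β := b₁ (0, o) (0, o) with hβ
  have hβ0 : β ≠ 0 := by
    intro h0
    have h1 : o = 0 := by
      apply hb₁.ndC hF
      intro z'
      rw [hz z']
      have : ((0, z' 0 • o) : L × (Fin 1 → F)) = z' 0 • (0, o) := by simp
      rw [this, map_smul, ← hβ, h0, smul_zero]
    have h2 := congrFun h1 0
    simp [ho] at h2
  -- expansion of the forms
  have hexp₁ : ∀ (l : L) (r : F) (l' : L) (z : Fin 1 → F),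
      b₁ (l, r • o) (l', z) = μ₁ * t (τ l' * l) + r * z 0 * β := by
    intro l r l' z
    have e1 : ((l, r • o) : L × (Fin 1 → F)) = (l, 0) + r • (0, o) := by simp
    have e2 : ((l', z) : L × (Fin 1 → F)) = (l', 0) + z 0 • (0, o) := by
      refine Prod.ext (by simp) ?_
      show z = 0 + z 0 • o
      rw [zero_add]; exact hz z
    rw [e1, e2]
    simp only [map_add, map_smul, LinearMap.add_apply, LinearMap.smul_apply, hf₁, hb₁.orth hF, hb₁.orth' hF,
      ← hβ, smul_eq_mul]
    ring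
  set γ := b₂ (0, o) (0, o) with hγ
  have hexp₂ : ∀ (l : L) (r : F) (l' : L) (z : Fin 1 → F),
      b₂ (l, r • o) (l', z) = μ₂ * t (τ l' * l) + r * z 0 * γ := by
    intro l r l' z
    have e1 : ((l, r • o) : L × (Fin 1 → F)) = (l, 0) + r • (0, o) := by simp
    have e2 : ((l', z) : L × (Fin 1 → F)) = (l', 0) + z 0 • (0, o) := by
      refine Prod.ext (by simp) ?_
      show z = 0 + z 0 • o
      rw [zero_add]; exact hz z
    rw [e1, e2]
    simp only [map_add, map_smul, LinearMap.add_apply, LinearMap.smul_apply, hf₂, hb₂.orth hF, hb₂.orth' hF,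
      ← hγ, smul_eq_mul]
    ring
  -- from the form to `T`
  have huniq : ∀ (p : L × (Fin 1 → F)) (l : L) (r : F), (∀ (l' : L) (z : Fin 1 → F), b₁ (T p) (l', z) = b₁ (l, r • o) (l', z)) → T p = (l, r • o) := by
    intro p l r hh
    rw [← sub_eq_zero]
    apply hb₁.nd
    rintro ⟨l', z⟩
    rw [map_sub, LinearMap.sub_apply, hh, sub_self]
  set κ := μ₂ / μ₁ with hκ
  have hκ0 : κ ≠ 0 := div_ne_zero hμ₂ hμ₁
  have hκμ : κ * μ₁ = μ₂ := div_mul_cancel₀ _ hμ₁
  have htadd : ∀ (l' m : L) (r : F), t (τ (l' + algebraMap F L r) * m) = t (τ l' * m) + r * t m := by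
    intro l' m r
    rw [map_add, AlgEquiv.commutes, add_mul, map_add, ← Algebra.smul_def, map_smul, smul_eq_mul]
  have htsm : ∀ (r : F) (x : L), t (x * algebraMap F L r) = r * t x := by
    intro r x
    rw [mul_comm, ← Algebra.smul_def, map_smul, smul_eq_mul]
  have ht1 : t 1 = 0 := by rw [← map_one (algebraMap F L)]; exact hF.tr_F ht 1
  -- `T (1, 0) = (κ, 0)`
  have hT1 : T (1, 0) = (algebraMap F L κ, (0 : F) • o) := by
    apply huniq
    intro l' z
    rw [← h, hexp₁]
    show b₂ ((1 : L) + algebraMap F L (0 : F), (0 : Fin 1 → F)) (l' + algebraMap F L (z 0), z) = _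
    have e1 : (((1 : L) + algebraMap F L (0 : F), (0 : Fin 1 → F)) : L × (Fin 1 → F)) = (1, (0 : F) • o) := by simp
    rw [e1, hexp₂, htadd, ht1, htsm, mul_one, ← hκμ]
    ring
  -- `T (ζ, 0) = (κ ζ, θ)`
  set θ := μ₂ * t ζ / β with hθ
  have hθ0 : θ ≠ 0 := div_ne_zero (mul_ne_zero hμ₂ htz) hβ0
  have hθβ : θ * β = μ₂ * t ζ := div_mul_cancel₀ _ hβ0
  have hTζ : T (ζ, 0) = (κ • ζ, θ • o) := by
    apply huniq
    intro l' z
    rw [← h, hexp₁]
    show b₂ (ζ + algebraMap F L (0 : F), (0 : Fin 1 → F)) (l' + algebraMap F L (z 0), z) = _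
    have e1 : ((ζ + algebraMap F L (0 : F), (0 : Fin 1 → F)) : L × (Fin 1 → F)) = (ζ, (0 : F) • o) := by simp
    rw [e1, hexp₂, htadd, mul_smul_comm, map_smul, smul_eq_mul]
    linear_combination (-(t (τ l' * ζ))) * hκμ - (z 0) * hθβ
  -- `T (0, 1) = (κ, ρ)`
  set ρ := γ / β with hρ
  have hρβ : ρ * β = γ := div_mul_cancel₀ _ hβ0
  have hTo : T (0, o) = (algebraMap F L κ, ρ • o) := by
    apply huniq
    intro l' z
    rw [← h, hexp₁]
    show b₂ ((0 : L) + algebraMap F L (o 0), o) (l' + algebraMap F L (z 0), z) = _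
    have e1 : (((0 : L) + algebraMap F L (o 0), o) : L × (Fin 1 → F)) = (1, (1 : F) • o) := by simp [ho]
    rw [e1, hexp₂, htadd, ht1, htsm, mul_one]
    linear_combination (-(t (τ l'))) * hκμ - (z 0) * hρβ
  -- `u = κ²`
  have hu : u = κ * κ := by
    have h1 := hT (1, 0)
    rw [hT1] at h1
    have e1 : ((algebraMap F L κ, (0 : F) • o) : L × (Fin 1 → F)) = κ • (1, 0) := by
      refine Prod.ext ?_ (by simp)
      show algebraMap F L κ = κ • (1 : L)
      rw [Algebra.smul_def, mul_one]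
    rw [e1, map_smul, hT1, e1, smul_smul] at h1
    have h2 := congrArg Prod.fst h1
    have h3 : (κ * κ) • (1 : L) = u • (1 : L) := h2
    rw [Algebra.smul_def, Algebra.smul_def, mul_one, mul_one] at h3
    exact ((algebraMap F L).injective h3).symm
  have h1 := hT (ζ, 0)
  have e1 : ((κ • ζ, θ • o) : L × (Fin 1 → F)) = κ • (ζ, 0) + θ • (0, o) := by simp
  rw [hTζ, e1, map_add, map_smul, map_smul, hTζ, hTo, hu] at h1
  have h2 := congrArg Prod.fst h1
  have h3 : κ • κ • ζ + θ • algebraMap F L κ = (κ * κ) • ζ := h2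
  rw [smul_smul, add_eq_left, Algebra.smul_def, ← map_mul] at h3
  have h4 : θ * κ = 0 := (algebraMap F L).injective (by rw [h3, map_zero])
  rcases mul_eq_zero.1 h4 with h5 | h5
  · exact hθ0 h5
  · exact hκ0 h5

end IV

end Cfsg.Agent.H284.SK
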