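import Cfsg.Agent.H284.SK.PslC
import Cfsg.Agent.H199.PslGraphField

/-!
# S3010 (Sidki pairs): the row `PSL_n(q)`, `q` even (helper284)
-/

set_option autoImplicit false
set_option linter.unusedVariables false
set_option linter.unusedSectionVars false
set_option linter.style.haveILetI false

universe u

open Matrix Subgroup Cfsg
open Cfsg.Agent.H282.SK
open Cfsg.Agent.ClassicalGeometry.AutPSL.Root
open Cfsg.Agent.ClassicalGeometry.AutPSL.Auto
open Cfsg.Agent.H199.PslAut

namespace Cfsg.Agent.H284.SK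

section index

/-- a subgroup such that the product of any two elements outside lies inside has index at most 2 -/
theorem card_le_two {G : Type*} [Group G] [Finite G] {A B : Subgroup G}
    (h : ∀ a ∈ B, ∀ b ∈ B, a ∉ A → b ∉ A → a * b ∈ A) : Nat.card B ≤ 2 * Nat.card A := by
  by_cases hex : ∃ b ∈ B, b ∉ A
  · obtain ⟨b, hb, hbA⟩ := hex
    have h1 : (B : Set G) ⊆ (A : Set G) ∪ (fun x => b⁻¹ * x) '' (A : Set G) := by
      intro x hx
      by_cases hxA : x ∈ A
      · exact Or.inl hxA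
      · right
        exact ⟨b * x, h b hb x hx hbA hxA, by show b⁻¹ * (b * x) = x; group⟩
    have h2 := Set.ncard_le_ncard h1 (Set.toFinite _)
    have h3 := Set.ncard_union_le (A : Set G) ((fun x => b⁻¹ * x) '' (A : Set G))
    have h4 : ((fun x => b⁻¹ * x) '' (A : Set G)).ncard = (A : Set G).ncard :=
      Set.ncard_image_of_injective _ (mul_right_injective b⁻¹)
    have h5 : (B : Set G).ncard = Nat.card B := rfl
    have h6 : (A : Set G).ncard = Nat.card A := rfl
    omega
  · push Not at hex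
    have h1 : Nat.card B ≤ Nat.card A := Nat.card_le_card_of_injective
      (fun x : B => (⟨x.1, hex x.1 x.2⟩ : A)) (fun x y hxy => Subtype.ext (congrArg (fun z : A => (z : G)) hxy))
    omega

end index

variable {F : Type*} [Field F] {n : ℕ}

local notation "PSLn" => Matrix.ProjectiveSpecialLinearGroup (Fin n) F
local notation "SLn" => Matrix.SpecialLinearGroup (Fin n) F
local notation "Mn" => Matrix (Fin n) (Fin n) F

section inner

variable [Finite F] [CharP F 2] {G : Type u} [Group G] [Finite G] {V K : Subgroup G}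

theorem mul_semi (g g' : GL (Fin n) F) (σ σ' : F ≃+* F) :
    (Psi n F g * phi n F σ) * (Psi n F g' * phi n F σ') = Psi n F (g * mapGL σ g') * phi n F (σ * σ') := by
  calc (Psi n F g * phi n F σ) * (Psi n F g' * phi n F σ') = Psi n F g * (phi n F σ * Psi n F g') * phi n F σ' := by
        simp only [mul_assoc]
    _ = _ := by rw [phi_mul_Psi, map_mul, map_mul]; simp only [mul_assoc]

theorem mul_pol (g g' : GL (Fin n) F) (σ σ' : F ≃+* F) :
    (Psi n F g * phi n F σ * iot n F) * (Psi n F g' * phi n F σ' * iot n F) =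
      Psi n F (g * mapGL σ (itGL g')) * phi n F (σ * σ') := by
  calc (Psi n F g * phi n F σ * iot n F) * (Psi n F g' * phi n F σ' * iot n F)
      = Psi n F g * phi n F σ * (iot n F * Psi n F g') * (phi n F σ' * iot n F) := by
        simp only [mul_assoc]
    _ = Psi n F g * (phi n F σ * Psi n F (itGL g')) * (iot n F * phi n F σ') * iot n F := by
        rw [iot_mul_Psi]; simp only [mul_assoc]
    _ = Psi n F g * Psi n F (mapGL σ (itGL g')) * phi n F σ * phi n F σ' * (iot n F * iot n F) := by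
        rw [iot_mul_phi, phi_mul_Psi]; simp only [mul_assoc]
    _ = _ := by rw [iot_mul_iot, mul_one, map_mul, map_mul]; simp only [mul_assoc]

/-- **`V` contains an involution of `SL_n(F)`.** -/
theorem exists_inner (h : Cx V K) (e : K ≃* PSLn) (hn : 2 ≤ n) :
    ∃ s : SLn, s * s = 1 ∧ s ≠ 1 ∧ el e (pr s) ∈ V := by
  haveI : Fintype F := Fintype.ofFinite F
  let V₁ : Subgroup G :=
    { carrier := {w | w ∈ V ∧ ∃ (g : GL (Fin n) F) (σ : F ≃+* F), act h e w = Psi n F g * phi n F σ}
      mul_mem' := by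
        rintro a b ⟨ha, g, σ, hg⟩ ⟨hb, g', σ', hg'⟩
        exact ⟨V.mul_mem ha hb, _, _, by rw [map_mul, hg, hg', mul_semi]⟩
      one_mem' := ⟨V.one_mem, 1, 1, by rw [map_one, map_one, phi_one, mul_one]⟩
      inv_mem' := by
        rintro a ⟨ha, hh⟩
        rw [h.inv_eq ha]
        exact ⟨ha, hh⟩ }
  let V₂ : Subgroup G :=
    { carrier := {w | w ∈ V ∧ ∃ (g : GL (Fin n) F), act h e w = Psi n F g}
      mul_mem' := by
        rintro a b ⟨ha, g, hg⟩ ⟨hb, g', hg'⟩
        exact ⟨V.mul_mem ha hb, g * g', by rw [map_mul, hg, hg', map_mul]⟩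
      one_mem' := ⟨V.one_mem, 1, by rw [map_one, map_one]⟩
      inv_mem' := by
        rintro a ⟨ha, hh⟩
        rw [h.inv_eq ha]
        exact ⟨ha, hh⟩ }
  have h1 : Nat.card V ≤ 2 * Nat.card V₁ := by
    apply card_le_two
    intro a ha b hb ha1 hb1
    rcases exists_form hn (act h e a) with ⟨g, σ, hg⟩ | ⟨-, g, σ, hg⟩
    · exact absurd ⟨ha, g, σ, hg⟩ ha1
    rcases exists_form hn (act h e b) with ⟨g', σ', hg'⟩ | ⟨-, g', σ', hg'⟩
    · exact absurd ⟨hb, g', σ', hg'⟩ hb1
    exact ⟨V.mul_mem ha hb, _, _, by rw [map_mul, hg, hg', mul_pol]⟩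
  have hord : ∀ a ∈ V, ∀ (g : GL (Fin n) F) (σ : F ≃+* F), act h e a = Psi n F g * phi n F σ → a ∉ V₂ →
      orderOf σ = 2 := by
    intro a ha g σ hg ha2
    have hsq : act h e a * act h e a = 1 := by rw [← map_mul, h.sq ha, map_one]
    rw [hg, mul_semi] at hsq
    obtain ⟨-, hσ⟩ := Psi_phi_eq (τ := 1) hn (by rw [hsq, phi_one])
    apply orderOf_eq_prime (by rw [pow_two]; exact hσ)
    rintro rfl
    apply ha2
    exact ⟨ha, g, by rw [hg, phi_one, mul_one]⟩
  have h2 : Nat.card V₁ ≤ 2 * Nat.card V₂ := by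
    apply card_le_two
    rintro a ⟨ha, g, σ, hg⟩ b ⟨hb, g', σ', hg'⟩ ha2 hb2
    have h3 := hord a ha g σ hg ha2
    have h4 := hord b hb g' σ' hg' hb2
    have h5 : σ = σ' := Cfsg.Agent.H199.PslGraphField.involution_unique h3 h4
    subst h5
    refine ⟨V.mul_mem ha hb, g * mapGL σ g', ?_⟩
    have h6 : σ * σ = 1 := by rw [← pow_two, ← h3, pow_orderOf_eq_one]
    rw [map_mul, hg, hg', mul_semi, h6, phi_one, mul_one]
  have h3 := h.card
  have h4 : 1 < Nat.card V₂ := by omega
  obtain ⟨v, hv1⟩ := Subgroup.ne_bot_iff_exists_ne_one.1 ((Subgroup.one_lt_card_iff_ne_bot V₂).1 h4)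
  obtain ⟨hvV, g, hg⟩ := v.2
  have hsq : Psi n F g * Psi n F g = 1 := by rw [← hg, ← map_mul, h.sq hvV, map_one]
  obtain ⟨R, hR, hRg⟩ := exists_sl_of_sq hn g hsq
  have h5 : act h e v = act h e (el e (pr R)) := by rw [hg, ← hRg, Psi_coe, act_el']
  have h6 := act_injective h e h5
  refine ⟨R, hR, ?_, h6 ▸ hvV⟩
  rintro rfl
  apply hv1
  apply Subtype.ext
  rw [h6, map_one, map_one]
  rfl

end inner

section form

variable {k c : ℕ} {L : Type} [Field L] [Algebra F L] {τ : L ≃ₐ[F] L} {ζ : L}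

/-- the form of a polarity -/
noncomputable def frm (g : GL (Fin n) F) (Φ : (Fin n → F) ≃ₗ[F] (L × (Fin c → F))) :
    LinearMap.BilinForm F (L × (Fin c → F)) :=
  (Matrix.toBilin' ((g⁻¹ : GL (Fin n) F) : Mn)).comp (Φ.symm : (L × (Fin c → F)) →ₗ[F] (Fin n → F))
    (Φ.symm : (L × (Fin c → F)) →ₗ[F] (Fin n → F))

theorem frm_apply (g : GL (Fin n) F) (Φ : (Fin n → F) ≃ₗ[F] (L × (Fin c → F))) (p q : L × (Fin c → F)) :
    frm g Φ p q = Φ.symm p ⬝ᵥ (((g⁻¹ : GL (Fin n) F) : Mn) *ᵥ Φ.symm q) := by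
  rw [frm, LinearMap.BilinForm.comp_apply, Matrix.toBilin'_apply']
  rfl

/-- fixed by a polarity means similitude -/
theorem sim {g : GL (Fin n) F} {Y : SLn} {d : F} (h : (Y : Mn) = d • (cj g (itr Y) : Mn)) (a b : Fin n → F) :
    ((Y : Mn) *ᵥ a) ⬝ᵥ (((g⁻¹ : GL (Fin n) F) : Mn) *ᵥ ((Y : Mn) *ᵥ b)) =
      d * (a ⬝ᵥ (((g⁻¹ : GL (Fin n) F) : Mn) *ᵥ b)) := by
  have h1 : ((g⁻¹ : GL (Fin n) F) : Mn) * (Y : Mn) = d • (((Y⁻¹ : SLn) : Mn)ᵀ * ((g⁻¹ : GL (Fin n) F) : Mn)) := by
    rw [h, mul_smul_comm, coe_cj, coe_itr, ← mul_assoc, ← mul_assoc, ← Units.val_mul, inv_mul_cancel, Units.val_one,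
      one_mul]
  rw [mulVec_mulVec, h1, smul_mulVec, dotProduct_smul, smul_eq_mul, ← mulVec_mulVec]
  congr 1
  rw [Matrix.dotProduct_mulVec, Matrix.vecMul_transpose, ← sl_mul_mulVec, inv_mul_cancel,
    Matrix.SpecialLinearGroup.coe_one, one_mulVec]

theorem inv_symm {g : GL (Fin n) F} (h : (g : Mn)ᵀ = (g : Mn)) :
    ((g⁻¹ : GL (Fin n) F) : Mn)ᵀ = ((g⁻¹ : GL (Fin n) F) : Mn) := by
  have h1 : ((g⁻¹ : GL (Fin n) F) : Mn)ᵀ * (g : Mn) = 1 := by
    rw [← h, ← transpose_mul, ← Units.val_mul, mul_inv_cancel, Units.val_one, transpose_one]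
  calc ((g⁻¹ : GL (Fin n) F) : Mn)ᵀ = ((g⁻¹ : GL (Fin n) F) : Mn)ᵀ * ((g : Mn) * ((g⁻¹ : GL (Fin n) F) : Mn)) := by
        rw [← Units.val_mul, mul_inv_cancel, Units.val_one, mul_one]
    _ = _ := by rw [← mul_assoc, h1, one_mul]

variable [Finite F] [CharP F 2] {G : Type u} [Group G] [Finite G] {V K : Subgroup G}

theorem Pol.bf {h : Cx V K} {e : K ≃* PSLn} (hF : Fd F k L τ ζ) {Φ : (Fin n → F) ≃ₗ[F] (L × (Fin c → F))} {s : SLn}
    (hΦ : ∀ x, Φ ((s : Mn) *ᵥ x) = (τ (Φ x).1, (Φ x).2)) {w : G} {g : GL (Fin n) F}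
    (hP : Pol h e s (hF.X Φ) w g) : BF c τ ζ (frm g Φ) := by
  constructor
  · intro p q
    rw [frm_apply, frm_apply, dotProduct_comm, ← vecMul_transpose, inv_symm hP.symm, Matrix.dotProduct_mulVec]
  · intro p hp
    have h1 : Φ.symm p = 0 := by
      rw [← dotProduct_eq_zero_iff]
      intro z
      have h2 := hp (Φ ((g : Mn) *ᵥ z))
      rw [frm_apply, LinearEquiv.symm_apply_apply, mulVec_mulVec, ← Units.val_mul, inv_mul_cancel, Units.val_one,
        one_mulVec] at h2
      exact h2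
    rwa [LinearEquiv.map_eq_zero_iff] at h1
  · intro p q
    have h1 : ∀ p, Φ.symm (Am F c ζ p) = (hF.X Φ : Mn) *ᵥ (Φ.symm p) := by
      intro p
      apply Φ.injective
      rw [hF.X_mulVec, LinearEquiv.apply_symm_apply, LinearEquiv.apply_symm_apply]
      rfl
    rw [frm_apply, frm_apply, h1, h1, sim (d := 1) (by rw [one_smul, hP.fixX]), one_mul]
  · intro p q
    have h1 : ∀ p, Φ.symm (Tm F c τ p) = (s : Mn) *ᵥ (Φ.symm p) := by
      intro p
      apply Φ.injective
      rw [hΦ, LinearEquiv.apply_symm_apply, LinearEquiv.apply_symm_apply]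
      rfl
    rw [frm_apply, frm_apply, h1, h1, sim (d := 1) (by rw [one_smul, hP.fixs]), one_mul]

/-- elements of `C_K(⟨v, x⟩)` are similitudes -/
theorem Pol.sim {h : Cx V K} {e : K ≃* PSLn} (hF : Fd F k L τ ζ) {Φ : (Fin n → F) ≃ₗ[F] (L × (Fin c → F))} {s : SLn}
    (hΦ : ∀ x, Φ ((s : Mn) *ᵥ x) = (τ (Φ x).1, (Φ x).2)) {w : G} {g : GL (Fin n) F}
    (hP : Pol h e s (hF.X Φ) w g) (A : (L × (Fin c → F)) →ₗ[F] (L × (Fin c → F))) (hA : LinearMap.det A = 1)
    (h1 : ∀ p, A (Tm F c τ p) = Tm F c τ (A p)) (h2 : ∀ p, A (Am F c ζ p) = Am F c ζ (A p)) :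
    ∃ d : F, ∀ p q, frm g Φ (A p) (A q) = d * frm g Φ p q := by
  set Y := mkS Φ A hA with hY
  have hYv : ∀ x, Φ ((Y : Mn) *ᵥ x) = A (Φ x) := fun x => mkS_mulVec' Φ A hA x
  have hYs : Y * s = s * Y := by
    apply sl_ext' Φ
    intro x
    rw [sl_mul_mulVec, sl_mul_mulVec, hYv, hΦ, hΦ, hYv]
    exact h1 (Φ x)
  have hYX : Y * hF.X Φ = hF.X Φ * Y := by
    apply sl_ext' Φ
    intro x
    rw [sl_mul_mulVec, sl_mul_mulVec, hYv, hF.X_mulVec, hF.X_mulVec, hYv]
    exact h2 (Φ x)
  obtain ⟨d, hd⟩ := hP.fix Y hYs hYX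
  refine ⟨d, ?_⟩
  intro p q
  have h3 : ∀ p, Φ.symm (A p) = (Y : Mn) *ᵥ (Φ.symm p) := fun p => (mkS_mulVec_symm Φ A hA p).symm
  rw [frm_apply, frm_apply, h3, h3, SK.sim hd]

end form

section main

variable [Finite F] [CharP F 2] {G : Type u} [Group G] [Finite G] {V K : Subgroup G}

/-- **The row `PSL_n(q)`, `q` even.** -/
theorem srow_psl (h : Cx V K) (e : K ≃* PSLn) (hn : 2 ≤ n) (h42 : ¬ (n = 4 ∧ Nat.card F = 2)) : False := by
  haveI : Fintype F := Fintype.ofFinite F
  obtain ⟨s, hs, hs1, hsV⟩ := exists_inner h e hn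
  obtain ⟨k, hk, c, hkc, L, hL1, hL2, hL3, τ, ζ, hF, Φ, hΦ⟩ := exists_model_sl hs hs1
  obtain ⟨w, g, hP⟩ := outer h e hn hF Φ hs1 hΦ hsV
  have hb := hP.bf hF hΦ
  have h3 := hP.three
  rcases Nat.lt_or_ge 1 k with hk2 | hk1
  · -- rank at least two
    obtain ⟨a, ha0, ha, hac⟩ := hF.big hk2
    set q := Nat.card F with hq
    have hdet : LinearMap.det (Am F c (a ^ (q - 1))) = 1 := by
      rw [← Am_pow, map_pow]
      have h4 : LinearMap.det (Am F c a) ≠ 0 := by
        intro h0
        have h5 : Am F c a * Am F c a⁻¹ = 1 := by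
          apply LinearMap.ext
          intro p
          show Am F c a (Am F c a⁻¹ p) = p
          simp only [Am_apply]
          rw [← mul_assoc, mul_inv_cancel₀ ha0, one_mul]
        have h6 := congrArg LinearMap.det h5
        rw [map_mul, h0, zero_mul, map_one] at h6
        exact zero_ne_one h6
      have := FiniteField.pow_card_sub_one_eq_one _ h4
      rwa [Fintype.card_eq_nat_card] at this
    have hτ : τ (a ^ (q - 1)) = a ^ (q - 1) := by rw [map_pow, ha]
    obtain ⟨d, hd⟩ := hP.sim hF hΦ (Am F c (a ^ (q - 1))) hdet (by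
      intro p
      refine Prod.ext ?_ rfl
      show a ^ (q - 1) * τ p.1 = τ (a ^ (q - 1) * p.1)
      rw [map_mul, hτ]) (by
      intro p
      refine Prod.ext ?_ rfl
      show a ^ (q - 1) * (ζ * p.1) = ζ * (a ^ (q - 1) * p.1)
      ring)
    obtain ⟨r, hr⟩ := hb.no_e hF hτ (d := d) (fun l l' => hd (l, 0) (l', 0))
    exact hac r hr
  · obtain rfl : k = 1 := by omega
    rcases Nat.lt_or_ge c 3 with hc3 | hc3
    · rcases Nat.lt_or_ge 1 c with hc2 | hc1
      · -- `n = 4`
        obtain rfl : c = 2 := by omega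
        have hq2 : 2 < Nat.card F := by
          have h4 : 1 < Nat.card F := Finite.one_lt_card
          rcases Nat.lt_or_ge 2 (Nat.card F) with h5 | h5
          · exact h5
          · exact absurd ⟨by omega, by omega⟩ h42
        obtain ⟨r, hr0, hr1⟩ : ∃ r : F, r ≠ 0 ∧ r ≠ 1 := by
          classical
          by_contra hcon
          push Not at hcon
          have h5 : (Finset.univ : Finset F) ⊆ {0, 1} := by
            intro x _
            by_cases hx : x = 0
            · simp [hx]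
            · simp [hcon x hx]
          have h6 := Finset.card_le_card h5
          have h7 : ({0, 1} : Finset F).card ≤ 2 := Finset.card_le_two
          rw [Finset.card_univ, Fintype.card_eq_nat_card] at h6
          omega
        let A : (L × (Fin 2 → F)) →ₗ[F] (L × (Fin 2 → F)) :=
          LinearMap.prodMap (r⁻¹ • LinearMap.id) (r • LinearMap.id)
        have hA : ∀ p, A p = (r⁻¹ • p.1, r • p.2) := fun p => rfl
        have hdet : LinearMap.det A = 1 := by
          change LinearMap.det (LinearMap.prodMap (r⁻¹ • LinearMap.id : L →ₗ[F] L)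
            (r • LinearMap.id : (Fin 2 → F) →ₗ[F] (Fin 2 → F))) = 1
          rw [LinearMap.det_prodMap, LinearMap.det_smul, LinearMap.det_smul, hF.fr, LinearMap.det_id,
            LinearMap.det_id, Module.finrank_fin_fun, mul_one, mul_one, mul_one, inv_pow, inv_mul_cancel₀
            (pow_ne_zero 2 hr0)]
        obtain ⟨d, hd⟩ := hP.sim hF hΦ A hdet (by
          intro p
          rw [hA, hA]
          refine Prod.ext ?_ rfl
          show r⁻¹ • τ p.1 = τ (r⁻¹ • p.1)
          rw [map_smul]) (by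
          intro p
          rw [hA, hA]
          refine Prod.ext ?_ rfl
          show r⁻¹ • (ζ * p.1) = ζ * (r⁻¹ • p.1)
          rw [mul_smul_comm])
        exact hb.no_sc hF (by norm_num) hr0 hr1 hd
      · -- `n = 3`
        obtain rfl : c = 1 := by omega
        let c₀ : (L × (Fin 1 → F)) ≃ₗ[F] (L × (Fin 1 → F)) :=
          { toFun := fun p => (p.1 + algebraMap F L (p.2 0), p.2)
            invFun := fun p => (p.1 - algebraMap F L (p.2 0), p.2)
            map_add' := by
              intro p q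
              refine Prod.ext ?_ rfl
              show (p.1 + q.1) + algebraMap F L (p.2 0 + q.2 0) = _ + _
              rw [map_add]
              ring
            map_smul' := by
              intro r p
              refine Prod.ext ?_ rfl
              show r • p.1 + algebraMap F L (r * p.2 0) = r • (p.1 + algebraMap F L (p.2 0))
              rw [map_mul, smul_add, Algebra.smul_def r (algebraMap F L (p.2 0))]
            left_inv := by
              intro p
              refine Prod.ext ?_ rfl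
              show p.1 + algebraMap F L (p.2 0) - algebraMap F L (p.2 0) = p.1
              ring
            right_inv := by
              intro p
              refine Prod.ext ?_ rfl
              show p.1 - algebraMap F L (p.2 0) + algebraMap F L (p.2 0) = p.1
              ring }
        have hc₀ : ∀ p, c₀ p = (p.1 + algebraMap F L (p.2 0), p.2) := fun p => rfl
        set Φ₂ := Φ.trans c₀ with hΦ₂d
        have hΦ₂ : ∀ x, Φ₂ ((s : Mn) *ᵥ x) = (τ (Φ₂ x).1, (Φ₂ x).2) := by
          intro x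
          rw [hΦ₂d, LinearEquiv.trans_apply, LinearEquiv.trans_apply, hΦ, hc₀, hc₀]
          refine Prod.ext ?_ rfl
          show τ (Φ x).1 + _ = τ ((Φ x).1 + _)
          rw [map_add, AlgEquiv.commutes]
        obtain ⟨w₂, g₂, hP₂⟩ := outer h e hn hF Φ₂ hs1 hΦ₂ hsV
        have hb₂ := hP₂.bf hF hΦ₂
        -- the product of the two polarities
        have hsq : Psi n F (g * g₂⁻¹) * Psi n F (g * g₂⁻¹) = 1 := by
          have h4 : act h e (w * w₂) = Psi n F (g * g₂⁻¹) := by
            rw [map_mul, hP.act, hP₂.act]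
            have h5 : itGL g₂ = g₂⁻¹ := by
              apply Units.ext
              rw [coe_itGL, inv_symm hP₂.symm]
            calc Psi n F g * iot n F * (Psi n F g₂ * iot n F) = Psi n F g * (iot n F * Psi n F g₂) * iot n F := by
                  simp only [mul_assoc]
              _ = _ := by
                rw [iot_mul_Psi, h5, ← mul_assoc, mul_assoc (Psi n F g * _), iot_mul_iot, mul_one, map_mul]
          rw [← h4, ← map_mul, h.sq (V.mul_mem hP.memV hP₂.memV), map_one]
        rw [← map_mul, Psi_eq_one_iff hn] at hsq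
        obtain ⟨u, hu⟩ := hsq
        let T : (L × (Fin 1 → F)) →ₗ[F] (L × (Fin 1 → F)) :=
          (Φ : (Fin n → F) →ₗ[F] (L × (Fin 1 → F))) ∘ₗ Matrix.toLin' ((g * g₂⁻¹ : GL (Fin n) F) : Mn) ∘ₗ
            (Φ.symm : (L × (Fin 1 → F)) →ₗ[F] (Fin n → F))
        have hTv : ∀ p, T p = Φ (((g * g₂⁻¹ : GL (Fin n) F) : Mn) *ᵥ Φ.symm p) := fun p => rfl
        refine no_three hF hb hb₂ T (u := (u : F)) ?_ ?_
        · intro p
          rw [hTv, hTv, LinearEquiv.symm_apply_apply, mulVec_mulVec, ← Units.val_mul, hu, coe_scal,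
            Matrix.scalar_apply, ← Matrix.smul_one_eq_diagonal, smul_mulVec, one_mulVec, map_smul,
            LinearEquiv.apply_symm_apply]
        · intro p q
          have h4 : ∀ p : L × (Fin 1 → F), Φ₂.symm (p.1 + algebraMap F L (p.2 0), p.2) = Φ.symm p := by
            intro p
            rw [← hc₀, LinearEquiv.symm_apply_eq, hΦ₂d, LinearEquiv.trans_apply, LinearEquiv.apply_symm_apply]
          rw [frm_apply, frm_apply, h4, h4, hTv, LinearEquiv.symm_apply_apply, Units.val_mul]
          have h5 : (((g : Mn) * ((g₂⁻¹ : GL (Fin n) F) : Mn)) *ᵥ Φ.symm p) ⬝ᵥ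
              (((g⁻¹ : GL (Fin n) F) : Mn) *ᵥ Φ.symm q) =
              Φ.symm p ⬝ᵥ (((((g : Mn) * ((g₂⁻¹ : GL (Fin n) F) : Mn))ᵀ) * ((g⁻¹ : GL (Fin n) F) : Mn)) *ᵥ Φ.symm q) := by
            rw [Matrix.dotProduct_mulVec (Φ.symm p), ← Matrix.vecMul_vecMul, Matrix.vecMul_transpose,
              ← Matrix.dotProduct_mulVec]
          rw [h5, transpose_mul, inv_symm hP₂.symm, hP.symm, mul_assoc, ← Units.val_mul, mul_inv_cancel, Units.val_one,
            mul_one]
    · -- transvections on the complement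
      refine hb.no_tr hF hc3 ?_
      intro ψ a hψ
      let D : (Fin c → F) →ₗ[F] (Fin c → F) := LinearMap.id + ψ.smulRight a
      have hD : ∀ z, D z = z + ψ z • a := fun z => rfl
      have hDD : ∀ z, D (D z) = z := by
        intro z
        rw [hD, hD, map_add, map_smul, hψ, smul_zero, add_zero, add_assoc, ← two_smul F (ψ z • a),
          CharTwo.two_eq_zero, zero_smul, add_zero]
      have hdet : LinearMap.det (Bm L D) = 1 := by
        apply det_eq_one_of_sq
        intro p
        refine Prod.ext rfl ?_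
        exact hDD _
      obtain ⟨d, hd⟩ := hP.sim hF hΦ (Bm L D) hdet (fun p => rfl) (fun p => rfl)
      exact ⟨d, hd⟩

end main

end Cfsg.Agent.H284.SK
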